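import Mathlib

set_option autoImplicit false

/-! The configuration `2^4.A4` that does not occur in groups of type `E₈` in characteristic three. -/

namespace Cfsg.Agent.H9.E8

/-- `E = ⟨z1, z2, e1, e2⟩` is elementary abelian, `y` acts on it fixed point freely with order three,
`a` acts as a transvection group element, and `⟨a, y⟩` is `A₄` modulo `E`. -/
structure Cf {G : Type*} [Group G] (z1 z2 e1 e2 y a : G) : Prop where
  ne : z1 ≠ 1
  s1 : z1 * z1 = 1
  s3 : e1 * e1 = 1
  c12 : z1 * z2 = z2 * z1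
  c13 : z1 * e1 = e1 * z1
  c14 : z1 * e2 = e2 * z1
  c23 : z2 * e1 = e1 * z2
  c24 : z2 * e2 = e2 * z2
  c34 : e1 * e2 = e2 * e1
  y1 : y * z1 = z2 * y
  y2 : y * z2 = z1 * z2 * y
  y3 : y * e1 = e2 * y
  y4 : y * e2 = e1 * e2 * y
  a1 : a * z1 = z1 * a
  a2 : a * z2 = z2 * a
  a3 : a * e1 = e1 * z1 * a
  a4 : a * e2 = e2 * (z1 * z2) * a
  pa : a * a ∈ Subgroup.closure {z1, z2, e1, e2}
  py : y * y * y ∈ Subgroup.closure {z1, z2, e1, e2}
  pay : a * y * (a * y) * (a * y) ∈ Subgroup.closure {z1, z2, e1, e2}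

def Cfg (G : Type*) [Group G] : Prop := ∃ z1 z2 e1 e2 y a : G, Cf z1 z2 e1 e2 y a

theorem Cf.map {G G' : Type*} [Group G] [Group G'] {z1 z2 e1 e2 y a : G} (h : Cf z1 z2 e1 e2 y a)
    (φ : G →* G') (hφ : φ z1 ≠ 1) : Cf (φ z1) (φ z2) (φ e1) (φ e2) (φ y) (φ a) := by
  have key : ∀ g ∈ Subgroup.closure {z1, z2, e1, e2}, φ g ∈ Subgroup.closure {φ z1, φ z2, φ e1, φ e2} := by
    intro g hg
    have := Subgroup.mem_map_of_mem φ hg
    rw [MonoidHom.map_closure] at this
    simpa only [Set.image_insert_eq, Set.image_singleton] using this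
  have m : ∀ {p q : G}, p = q → φ p = φ q := fun h => congrArg φ h
  exact ⟨hφ, by simpa using m h.s1, by simpa using m h.s3, by simpa using m h.c12, by simpa using m h.c13,
    by simpa using m h.c14, by simpa using m h.c23, by simpa using m h.c24, by simpa using m h.c34,
    by simpa using m h.y1, by simpa using m h.y2, by simpa using m h.y3, by simpa using m h.y4,
    by simpa using m h.a1, by simpa using m h.a2, by simpa using m h.a3, by simpa using m h.a4,
    by simpa using key _ h.pa, by simpa using key _ h.py, by simpa using key _ h.pay⟩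

theorem Cfg.map {G G' : Type*} [Group G] [Group G'] (h : Cfg G) (φ : G →* G') (hφ : Function.Injective φ) :
    Cfg G' := by
  obtain ⟨z1, z2, e1, e2, y, a, h⟩ := h
  exact ⟨_, _, _, _, _, _, h.map φ fun h1 => h.ne (hφ (h1.trans (map_one φ).symm))⟩

end Cfsg.Agent.H9.E8
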