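import Cfsg.Agent.LD.E8

set_option autoImplicit false
set_option maxRecDepth 100000

/-! The lattice of type `E₈` modulo two: computable layer. -/

namespace Cfsg.Agent.H9.E8

open Cfsg.Agent.H4.Sl Cfsg.Agent.LD.E8

abbrev V8 := Fin 8 → ℤ

def rt (r : ℕ) : V8 := fun i => crP PE8 r i

def bb (v w : V8) : ℤ :=
  v 0 * (2 * w 0 - w 2) + v 1 * (2 * w 1 - w 3) + v 2 * (2 * w 2 - w 0 - w 3) +
    v 3 * (2 * w 3 - w 1 - w 2 - w 4) + v 4 * (2 * w 4 - w 3 - w 5) + v 5 * (2 * w 5 - w 4 - w 6) +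
    v 6 * (2 * w 6 - w 5 - w 7) + v 7 * (2 * w 7 - w 6)

def Cd (d : ℤ) (v w : V8) : Prop := ∀ i, d ∣ v i - w i

instance (d : ℤ) (v w : V8) : Decidable (Cd d v w) := by unfold Cd; infer_instance

def v8 (m : ℕ) : V8 := fun i => ((m / 2 ^ (i : ℕ) % 2 : ℕ) : ℤ)

def ty (v : V8) : ℤ := if Cd 2 v 0 then 248 else if bb v v % 4 = 2 then 24 else -8

theorem f1 : ∀ m : Fin 256, 8 + sumP (fun r => if 2 ∣ bb (v8 m) (rt r) then 1 else -1) 240 = ty (v8 m) := by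
  decide +kernel

end Cfsg.Agent.H9.E8
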