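import Cfsg.Agent.H9.E8.D1

set_option autoImplicit false
set_option maxRecDepth 100000

/-! The lattice of type `E₈` modulo two: the finite checks. -/

namespace Cfsg.Agent.H9.E8

open Cfsg.Agent.H4.Sl Cfsg.Agent.LD.E8

def EvB (l : List V8) (v : V8) : Prop := ∀ μ ∈ l, 2 ∣ bb μ v

instance (l : List V8) (v : V8) : Decidable (EvB l v) := by unfold EvB; infer_instance

def by8 (W k : ℕ) : ℕ := Nat.land (Nat.shiftRight W (Nat.mul 8 k)) 255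

def act : List ℕ → V8 → V8
  | [], v => v
  | r :: l, v => if r < 240 then fun i => act l v i - bb (rt r) (act l v) * rt r i else act l v

def word (W m : ℕ) : List ℕ := (List.range 6).map fun j => by8 W (6 * m + j)

def AllT : List V8 → V8 → ℤ → Prop
  | [], v, c => ty v = c
  | μ :: l, v, c => AllT l v c ∧ AllT l (v + μ) c

instance decAllT : ∀ (l : List V8) (v : V8) (c : ℤ), Decidable (AllT l v c)
  | [], v, c => inferInstanceAs (Decidable (ty v = c))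
  | μ :: l, v, c => @instDecidableAnd _ _ (decAllT l v c) (decAllT l (v + μ) c)

def Std (l : List V8) (c : ℤ) (W : ℕ) (T : V8) : Prop :=
  ∀ m : Fin 256, AllT l (v8 m) c → (∀ μ ∈ l, Cd 2 (act (word W m) μ) μ) ∧ Cd 2 (act (word W m) (v8 m)) T

instance (l : List V8) (c : ℤ) (W : ℕ) (T : V8) : Decidable (Std l c W T) := by unfold Std; infer_instance

def InE : List V8 → V8 → Prop
  | [], v => Cd 2 v 0
  | μ :: l, v => InE l v ∨ InE l (v - μ)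

instance decInE : ∀ (l : List V8) (v : V8), Decidable (InE l v)
  | [], v => inferInstanceAs (Decidable (Cd 2 v 0))
  | μ :: l, v => @instDecidableOr _ _ (decInE l v) (decInE l (v - μ))

def comb (m : V8) (β : Fin 8 → V8) : V8 := fun k =>
  m 0 * β 0 k + m 1 * β 1 k + m 2 * β 2 k + m 3 * β 3 k + m 4 * β 4 k + m 5 * β 5 k + m 6 * β 6 k + m 7 * β 7 k

def gg (G : ℕ) (i j : Fin 8) : ℕ := dg G (Nat.mul 4 (Nat.add (Nat.mul 8 i) j))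

def Tree (g : Fin 8 → Fin 8 → ℕ) (P : (Fin 8 → Fin 8) → Prop) : Prop :=
  ∀ p0 p1 : Fin 8, g p0 p1 = g 0 1 → ∀ p2 : Fin 8, g p0 p2 = g 0 2 → g p1 p2 = g 1 2 →
  ∀ p3 : Fin 8, g p0 p3 = g 0 3 → g p1 p3 = g 1 3 → g p2 p3 = g 2 3 →
  ∀ p4 : Fin 8, g p0 p4 = g 0 4 → g p1 p4 = g 1 4 → g p2 p4 = g 2 4 → g p3 p4 = g 3 4 →
  ∀ p5 : Fin 8, g p0 p5 = g 0 5 → g p1 p5 = g 1 5 → g p2 p5 = g 2 5 → g p3 p5 = g 3 5 → g p4 p5 = g 4 5 →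
  ∀ p6 : Fin 8, g p0 p6 = g 0 6 → g p1 p6 = g 1 6 → g p2 p6 = g 2 6 → g p3 p6 = g 3 6 → g p4 p6 = g 4 6 →
    g p5 p6 = g 5 6 →
  ∀ p7 : Fin 8, g p0 p7 = g 0 7 → g p1 p7 = g 1 7 → g p2 p7 = g 2 7 → g p3 p7 = g 3 7 → g p4 p7 = g 4 7 →
    g p5 p7 = g 5 7 → g p6 p7 = g 6 7 → P ![p0, p1, p2, p3, p4, p5, p6, p7]

set_option synthInstance.maxSize 2000 in
set_option synthInstance.maxHeartbeats 400000 in
instance (g : Fin 8 → Fin 8 → ℕ) (P : (Fin 8 → Fin 8) → Prop) [DecidablePred P] : Decidable (Tree g P) := by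
  unfold Tree; infer_instance

theorem Tree.spec {g : Fin 8 → Fin 8 → ℕ} {P : (Fin 8 → Fin 8) → Prop} (h : Tree g P) (π : Fin 8 → Fin 8)
    (hπ : ∀ i j, g (π i) (π j) = g i j) : P π := by
  have := h (π 0) (π 1) (hπ _ _) (π 2) (hπ _ _) (hπ _ _) (π 3) (hπ _ _) (hπ _ _) (hπ _ _)
    (π 4) (hπ _ _) (hπ _ _) (hπ _ _) (hπ _ _) (π 5) (hπ _ _) (hπ _ _) (hπ _ _) (hπ _ _) (hπ _ _)
    (π 6) (hπ _ _) (hπ _ _) (hπ _ _) (hπ _ _) (hπ _ _) (hπ _ _)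
    (π 7) (hπ _ _) (hπ _ _) (hπ _ _) (hπ _ _) (hπ _ _) (hπ _ _) (hπ _ _)
  convert this using 1
  funext i; fin_cases i <;> rfl

def fr (I : ℕ) (j : Fin 8) : V8 := rt (by8 I j)

def Leaf (l : List V8) (k I : ℕ) (m2 m3 : List V8) (π : Fin 8 → Fin 8) : Prop :=
  (∀ j : Fin 8, k ≤ j → π j = j) → (∀ m ∈ m2, Cd 2 (comb m fun i => fr I (π i)) (comb m (fr I))) →
    (∀ m ∈ m3, Cd 3 (comb m fun i => fr I (π i)) 0) →
    (∀ i, π i = i) ∨ ∀ r : Fin 240, EvB l (rt r) → ∃ i, bb (rt r) (fr I (π i)) ≠ bb (rt r) (fr I i)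

instance (l : List V8) (k I : ℕ) (m2 m3 : List V8) : DecidablePred (Leaf l k I m2 m3) := fun π => by
  unfold Leaf; infer_instance

structure Frame (l : List V8) (k I : ℕ) (c : V8) (G : ℕ) (d : ℤ) (M : Matrix (Fin 8) (Fin 8) ℤ)
    (m2 m3 : List V8) : Prop where
  hc : ∀ i, c i = sumP (fun r => if 120 ≤ r ∧ EvB l (rt r) then rt r i else 0) 240
  hs : ∀ r : Fin 240, EvB l (rt r) → bb c (rt r) = 2 → ∃ j, Cd 0 (rt r) (fr I j)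
  hb : ∀ j : Fin 8, by8 I j < 240 ∧ ((j : ℕ) < k → EvB l (fr I j) ∧ bb c (fr I j) = 2)
  hg : ∀ i j p q : Fin 8, gg G p q = gg G i j ∨ bb (fr I p) (fr I q) ≠ bb (fr I i) (fr I j) ∨
    (InE l (fr I i + fr I j) ∧ ¬ Cd 2 (fr I p + fr I q) (fr I i + fr I j))
  hM : d ≠ 0 ∧ ∀ j i, comb (M j) (fr I) i = if j = i then d else 0
  h2 : ∀ m ∈ m2, InE l (comb m (fr I))
  h3 : ∀ m ∈ m3, Cd 3 (comb m (fr I)) 0
  ht : Tree (gg G) (Leaf l k I m2 m3)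

structure Fin4 (μ1 μ2 μ3 μ4 : V8) (γ : List ℕ) (i1 i2 : ℕ) (k : ℤ) : Prop where
  hE : ∀ m : Fin 256, EvB [μ1, μ2, μ3, μ4] (v8 m) → EvB (γ.map rt) (v8 m) → InE [μ1, μ2, μ3, μ4] (v8 m)
  hγ : ∀ r ∈ γ, r < 240 ∧ EvB [μ1, μ2, μ3, μ4] (rt r)
  hi : i1 < 240 ∧ i2 < 240
  h3 : Cd 0 μ3 fun i => rt i1 i + k * rt i2 i
  ho : ∀ r : Fin 240, EvB [μ1, μ2, μ3, μ4] (rt r) → bb (rt i1) (rt r) = 0 ∧ bb (rt i2) (rt r) = 0
  h1 : ¬ Cd 2 μ1 0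

end Cfsg.Agent.H9.E8
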