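import Cfsg.Agent.H9.E8.Cfg
import Cfsg.Prelude.Def_Classical

set_option autoImplicit false
set_option maxRecDepth 100000

/-! The configuration `2^4.A4` in `PSU₄(3)` and `PSp₆(3)`. -/

namespace Cfsg.Agent.H9.E8

open Matrix

theorem cf_of {M Q : Type*} [Monoid M] [Group Q] (ψ : M →* Q) (R : M → M → Prop) (hR : ∀ p q, R p q → ψ p = ψ q)
    (z1 z2 e1 e2 y a w : M) (h0 : ψ z1 ≠ 1) (hw : ψ w ∈ Subgroup.closure {ψ z1, ψ z2, ψ e1, ψ e2})
    (h : R (z1 * z1) 1 ∧ R (e1 * e1) 1 ∧ R (z1 * z2) (z2 * z1) ∧ R (z1 * e1) (e1 * z1) ∧ R (z1 * e2) (e2 * z1) ∧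
      R (z2 * e1) (e1 * z2) ∧ R (z2 * e2) (e2 * z2) ∧ R (e1 * e2) (e2 * e1) ∧ R (y * z1) (z2 * y) ∧
      R (y * z2) (z1 * z2 * y) ∧ R (y * e1) (e2 * y) ∧ R (y * e2) (e1 * e2 * y) ∧ R (a * z1) (z1 * a) ∧
      R (a * z2) (z2 * a) ∧ R (a * e1) (e1 * z1 * a) ∧ R (a * e2) (e2 * (z1 * z2) * a) ∧ R (a * a) w ∧
      R (y * y * y) 1 ∧ R (a * y * (a * y) * (a * y)) 1) : Cfg Q := by
  obtain ⟨h1, h2, h3, h4, h5, h6, h7, h8, h9, h10, h11, h12, h13, h14, h15, h16, h17, h18, h19⟩ := h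
  refine ⟨ψ z1, ψ z2, ψ e1, ψ e2, ψ y, ψ a, h0, by simpa using hR _ _ h1, by simpa using hR _ _ h2,
    by simpa using hR _ _ h3, by simpa using hR _ _ h4, by simpa using hR _ _ h5, by simpa using hR _ _ h6,
    by simpa using hR _ _ h7, by simpa using hR _ _ h8, by simpa using hR _ _ h9, by simpa using hR _ _ h10,
    by simpa using hR _ _ h11, by simpa using hR _ _ h12, by simpa using hR _ _ h13, by simpa using hR _ _ h14,
    by simpa using hR _ _ h15, by simpa using hR _ _ h16, ?_, ?_, ?_⟩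
  · rw [← map_mul, hR _ _ h17]; exact hw
  · rw [← map_mul, ← map_mul, hR _ _ h18, map_one]; exact one_mem _
  · simp only [← map_mul]
    rw [hR _ _ h19, map_one]; exact one_mem _

abbrev Sp6 := symplecticGroup (Fin 3) (ZMod 3)

def sp (A B C D : Matrix (Fin 3) (Fin 3) (ZMod 3))
    (h : fromBlocks A B C D * J (Fin 3) (ZMod 3) * (fromBlocks A B C D)ᵀ = J (Fin 3) (ZMod 3) := by decide +kernel) :
    Sp6 := ⟨fromBlocks A B C D, h⟩

def pz1 : Sp6 := sp !![2, 0, 0; 0, 1, 0; 0, 0, 1] 0 0 !![2, 0, 0; 0, 1, 0; 0, 0, 1]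
def pz2 : Sp6 := sp !![1, 0, 0; 0, 2, 0; 0, 0, 1] 0 0 !![1, 0, 0; 0, 2, 0; 0, 0, 1]
def pe1 : Sp6 := sp 0 !![2, 0, 0; 0, 2, 0; 0, 0, 2] 1 0
def pe2 : Sp6 := sp 1 1 1 !![2, 0, 0; 0, 2, 0; 0, 0, 2]
def py : Sp6 := sp 0 !![0, 0, 1; 1, 0, 0; 0, 1, 0] !![0, 0, 2; 2, 0, 0; 0, 2, 0] !![0, 0, 2; 2, 0, 0; 0, 2, 0]
def pa : Sp6 := sp !![0, 0, 0; 0, 1, 0; 0, 0, 1] !![1, 0, 0; 0, 2, 0; 0, 0, 1] !![2, 0, 0; 0, 2, 0; 0, 0, 1]
  !![0, 0, 0; 0, 2, 0; 0, 0, 2]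

theorem cfg_PSp : Cfg (Cfsg.PSp 3 (ZMod 3)) := by
  refine cf_of (QuotientGroup.mk' (Subgroup.center Sp6)) (fun p q => p.1 = q.1 ∨ p.1 = -q.1) (fun p q h => ?_)
    pz1 pz2 pe1 pe2 py pa 1 (fun h => ?_) (by rw [map_one]; exact one_mem _)
    (by refine ⟨?_, ?_, ?_, ?_, ?_, ?_, ?_, ?_, ?_, ?_, ?_, ?_, ?_, ?_, ?_, ?_, ?_, ?_, ?_⟩ <;> decide +kernel)
  · rcases h with h | h
    · rw [Subtype.ext h]
    · refine (QuotientGroup.mk'_eq_mk' _).mpr ⟨⟨-1, SymplecticGroup.neg_mem (one_mem _)⟩,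
        Subgroup.mem_center_iff.mpr fun g => Subtype.ext (by simp), Subtype.ext (by simp [h])⟩
  · have := congrArg Subtype.val (Subgroup.mem_center_iff.mp ((QuotientGroup.eq_one_iff _).mp h) py)
    revert this; decide +kernel

abbrev GI := GaussianInt

def US : Submonoid (Matrix (Fin 4) (Fin 4) GI) where
  carrier := {M | M.det = 1 ∧ Mᵀ * M.map star = 1}
  one_mem' := ⟨det_one, by simp [Matrix.map_one]⟩
  mul_mem' {A B} hA hB := ⟨by rw [det_mul, hA.1, hB.1, mul_one], by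
    have : (A * B).map star = A.map star * B.map star := Matrix.map_mul (f := starRingEnd GI)
    rw [this, transpose_mul, mul_assoc, ← mul_assoc Aᵀ, hA.2, one_mul, hB.2]⟩

def us (M : Matrix (Fin 4) (Fin 4) GI) (h : M.det = 1 ∧ Mᵀ * M.map star = 1 := by decide +kernel) : US := ⟨M, h⟩

def uz1 : US := us !![1, 0, 0, 0; 0, 1, 0, 0; 0, 0, -1, 0; 0, 0, 0, -1]
def uz2 : US := us !![1, 0, 0, 0; 0, -1, 0, 0; 0, 0, 1, 0; 0, 0, 0, -1]
def ue1 : US := us !![0, 1, 0, 0; 1, 0, 0, 0; 0, 0, 0, 1; 0, 0, 1, 0]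
def ue2 : US := us !![0, 0, 1, 0; 0, 0, 0, 1; 1, 0, 0, 0; 0, 1, 0, 0]
def uy : US := us !![1, 0, 0, 0; 0, 0, 0, 1; 0, 1, 0, 0; 0, 0, 1, 0]
def ua : US := us !![1, 0, 0, 0; 0, 1, 0, 0; 0, 0, ⟨0, 1⟩, 0; 0, 0, 0, ⟨0, -1⟩]
def ui : US := us ((⟨0, 1⟩ : GI) • 1)

theorem cfg_PSU {F : Type*} [Field F] [Fintype F] (h9 : Fintype.card F = 9) : Cfg (Cfsg.PSU 4 F 3) := by
  classical
  have : Fact (Nat.Prime 3) := ⟨Nat.prime_three⟩
  have : CharP F 3 := charP_of_card_eq_prime_pow (f := 2) h9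
  obtain ⟨i, hi⟩ : IsSquare (-1 : F) := by rw [FiniteField.isSquare_neg_one_iff, h9]; decide
  let φ : GI →+* F := Zsqrtd.lift ⟨i, by simpa using hi.symm⟩
  have hφ : ∀ x, φ x ^ 3 = φ (star x) := fun x => by
    have : (frobenius F 3).comp φ = φ.comp (starRingEnd GI) := Zsqrtd.hom_ext _ _ (by
      simp [φ, frobenius_def, Zsqrtd.sqrtd, pow_succ, ← hi, starRingEnd_apply])
    exact RingHom.congr_fun this x
  let ψ : US →* Cfsg.SU 4 F 3 :=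
    { toFun := fun M => ⟨⟨M.1.map φ, by
          have := φ.map_det M.1
          rw [M.2.1, map_one] at this; exact this.symm⟩, fun u v => by
        show Cfsg.hermForm 4 F 3 (M.1.map φ *ᵥ u) (M.1.map φ *ᵥ v) = _
        have h1 : ∀ w w' : Fin 4 → F, Cfsg.hermForm 4 F 3 w w' = w ⬝ᵥ fun k => frobenius F 3 (w' k) := fun _ _ => rfl
        have h2 : (fun k => frobenius F 3 ((M.1.map φ *ᵥ v) k)) =
            (M.1.map star).map φ *ᵥ fun k => frobenius F 3 (v k) := funext fun k => by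
          simp only [mulVec, dotProduct, map_sum, map_mul, map_apply]
          exact Finset.sum_congr rfl fun j _ => by rw [← hφ]; rfl
        rw [h1, h1, h2, dotProduct_mulVec, vecMul_mulVec, ← transpose_map, ← Matrix.map_mul, M.2.2,
          Matrix.map_one _ φ.map_zero φ.map_one, vecMul_one]⟩
      map_one' := Subtype.ext (Subtype.ext (Matrix.map_one _ φ.map_zero φ.map_one))
      map_mul' := fun A B => Subtype.ext (Subtype.ext Matrix.map_mul) }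
  have hc : ψ ui ∈ Subgroup.center (Cfsg.SU 4 F 3) := Subgroup.mem_center_iff.mpr fun g => by
    refine Subtype.ext (Subtype.ext ?_)
    show g.1.1 * ((⟨0, 1⟩ : GI) • (1 : Matrix (Fin 4) (Fin 4) GI)).map φ =
      ((⟨0, 1⟩ : GI) • (1 : Matrix (Fin 4) (Fin 4) GI)).map φ * g.1.1
    rw [Matrix.map_smul' _ _ _ φ.map_mul, Matrix.map_one _ φ.map_zero φ.map_one]; simp
  refine cf_of ((QuotientGroup.mk' (Subgroup.center _)).comp ψ) (fun p q => ∃ k : Fin 4, p.1 = (q * ui ^ (k : ℕ)).1)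
    (fun p q ⟨k, h⟩ => ?_) uz1 uz2 ue1 ue2 uy ua uz1 (fun h => ?_) (Subgroup.subset_closure (by simp))
    (by refine ⟨?_, ?_, ?_, ?_, ?_, ?_, ?_, ?_, ?_, ?_, ?_, ?_, ?_, ?_, ?_, ?_, ?_, ?_, ?_⟩ <;> decide +kernel)
  · rw [Subtype.ext h, map_mul, map_pow, MonoidHom.comp_apply _ _ ui,
      show QuotientGroup.mk' _ (ψ ui) = 1 from (QuotientGroup.eq_one_iff _).mpr hc, one_pow, mul_one]
  · have h1 := Subgroup.mem_center_iff.mp ((QuotientGroup.eq_one_iff _).mp h) (ψ uy)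
    rw [← map_mul, ← map_mul] at h1
    have h2 : φ ((uy * uz1).1 1 3) = φ ((uz1 * uy).1 1 3) := congrArg (fun g : Cfsg.SU 4 F 3 => g.1.1 1 3) h1
    rw [show (uy * uz1).1 1 3 = -1 by decide +kernel, show (uz1 * uy).1 1 3 = 1 by decide +kernel, map_neg,
      map_one] at h2
    have h3 : ((3 : ℕ) : F) = 0 := CharP.cast_eq_zero F 3
    exact one_ne_zero (α := F) (by push_cast at h3; linear_combination h3 + h2)

end Cfsg.Agent.H9.E8
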