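import Cfsg.Agent.H9.E8.R7
import Cfsg.Agent.H9.E8.Emb

set_option autoImplicit false

/-! No subgroup `PSU₄(3)` or `PSp₆(3)` in `E₈(3)`. -/

namespace Cfsg.Agent.H9.E8

open Cfsg.Lie

theorem no_of_cfg {Q : Type*} [Group Q] (h : Cfg Q) (H : Subgroup ↥(chevE8.group (ZMod 3))) : IsEmpty (↥H ≃* Q) :=
  ⟨fun e => no_cfg (h.map (H.subtype.comp e.symm.toMonoidHom) (H.subtype_injective.comp e.symm.injective))⟩

theorem no_U43 {F : Type*} [Field F] [Fintype F] (h9 : Fintype.card F = 9)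
    (H : Subgroup ↥(chevE8.group (ZMod 3))) : IsEmpty (↥H ≃* Cfsg.PSU 4 F 3) := no_of_cfg (cfg_PSU h9) H

theorem no_Sp63 (H : Subgroup ↥(chevE8.group (ZMod 3))) : IsEmpty (↥H ≃* Cfsg.PSp 3 (ZMod 3)) :=
  no_of_cfg cfg_PSp H

end Cfsg.Agent.H9.E8
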