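import Cfsg.Agent.LD.E5

set_option autoImplicit false
set_option linter.unusedSectionVars false
set_option linter.deprecated false

/-! Toral involutions and the relative Bruhat decomposition. -/

namespace Cfsg.Agent.H9.E8

open Cfsg.Agent.H4.Sl Cfsg.Agent.LD.E8 Cfsg.Agent.LD.E8.SR
open Cfsg.Agent.H4.Sl.RS (L hh Γ lin_ext finite_R co_e_self co_e_ne co_hh b_σ b_σ' σ_apply σ_self σ_σ σ_bij R_ρ
  sum_R lin_eq_of_roots mkL_e mkL_hh)

variable {ι Φ : Type} [Fintype ι] [DecidableEq ι] [Fintype Φ] [DecidableEq Φ] (S : SR ι Φ)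
variable (K : Type*) [Field K]

noncomputable def tmL (μ : ι → ℤ) : Module.End K (L ι Φ K) :=
  S.mkL K (hh K) fun a => sg K (S.b μ a) • S.e K a

theorem tmL_sq (μ : ι → ℤ) : tmL S K μ * tmL S K μ = 1 := by
  refine lin_ext (S := S.toRS) (fun a ha => ?_) (fun v => ?_)
  · simp [tmL, mkL_e _ _ ha, smul_smul, sg_sq]
  · simp [tmL, mkL_hh]

noncomputable def tm (μ : ι → ℤ) : Γ ι Φ K := ⟨tmL S K μ, tmL S K μ, tmL_sq S K μ, tmL_sq S K μ⟩

variable {S K}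

theorem mon_tm (μ : ι → ℤ) : S.Mon (tm S K μ) LinearMap.id (fun v => sg K (S.b μ v)) :=
  ⟨fun _ _ => rfl, fun _ h => h, Function.bijective_id, by simp [sg_zero], fun _ _ => by simp [sg_add],
    fun a ha => by show tmL S K μ _ = _; rw [tmL, mkL_e _ _ ha]; rfl,
    fun v => by show tmL S K μ _ = _; rw [tmL, mkL_hh]; rfl⟩

theorem tm_add (μ μ' : ι → ℤ) : tm S K (μ + μ') = tm S K μ * tm S K μ' :=
  (mon_tm _).eq ((mon_tm μ).mul (mon_tm μ')) (fun _ => rfl) fun a _ => by simp [sg_add, mul_comm]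

theorem tm_congr {μ μ' : ι → ℤ} (h : ∀ a, S.R a → 2 ∣ S.b μ a - S.b μ' a) : tm S K μ = tm S K μ' :=
  (mon_tm _).eq (mon_tm _) (fun _ => rfl) fun a ha => sg_congr (h a ha)

theorem tm_zero : tm S K 0 = 1 := (mon_tm _).eq Mon.one (fun _ => rfl) fun a _ => by simp [sg_zero]

theorem tm_sq (μ : ι → ℤ) : tm S K μ * tm S K μ = 1 := Units.ext (tmL_sq S K μ)

theorem tm_inv (μ : ι → ℤ) : (tm S K μ)⁻¹ = tm S K μ := inv_eq_of_mul_eq_one_right (tm_sq μ)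

theorem sg_inj (h2 : (2 : K) ≠ 0) {m n : ℤ} (h : sg K m = sg K n) : 2 ∣ m - n := by
  by_contra h1
  have : sg K m = sg K (n + 1) := sg_congr (by omega)
  rw [h, sg_add, sg_one] at this
  exact sg_ne n (mul_left_cancel₀ h2 (by linear_combination this))

theorem sg_odd {m : ℤ} (h : ¬ 2 ∣ m) : sg K m = -1 := by rw [← sg_one]; exact sg_congr (by omega)
theorem sg_even {m : ℤ} (h : 2 ∣ m) : sg K m = 1 := by rw [← sg_zero]; exact sg_congr (by omega)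

theorem mon_χ {n : Γ ι Φ K} {w w' : (ι → ℤ) →ₗ[ℤ] (ι → ℤ)} {χ χ' : (ι → ℤ) → K} (h : S.Mon n w χ)
    (h' : S.Mon n w' χ') {a : ι → ℤ} (ha : S.R a) : w a = w' a ∧ χ a = χ' a :=
  bruhat_unique (f := 0) h h' (one_mem _) (one_mem _) (by simp) a ha

theorem tm_inj (h2 : (2 : K) ≠ 0) {μ μ' : ι → ℤ} (h : tm S K μ = tm S K μ') {a : ι → ℤ} (ha : S.R a) :
    2 ∣ S.b μ a - S.b μ' a := by
  have h1 := mon_tm (S := S) (K := K) μ'
  rw [← h] at h1
  have h3 := (mon_χ (mon_tm (S := S) (K := K) μ) h1 ha).2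
  exact sg_inj h2 h3

theorem mon_conj_tm {n : Γ ι Φ K} {w : (ι → ℤ) →ₗ[ℤ] (ι → ℤ)} {χ : (ι → ℤ) → K} (h : S.Mon n w χ) (μ : ι → ℤ) :
    n * tm S K μ = tm S K (w μ) * n := by
  have h1 := h.mul (mon_tm (S := S) (K := K) μ)
  have h2 := (mon_tm (S := S) (K := K) (w μ)).mul h
  refine h1.eq h2 (fun _ => by simp) fun a _ => ?_
  show sg K (S.b μ a) * χ a = χ a * sg K (S.b (w μ) (w a))
  rw [h.iso, mul_comm]

theorem tm_X (μ : ι → ℤ) {r : ι → ℤ} (hr : S.R r) (t : K) :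
    tm S K μ * S.X K r t * (tm S K μ)⁻¹ = S.X K r (sg K (S.b μ r) * t) := (mon_tm μ).conj' hr t

theorem tm_U {μ : ι → ℤ} {T : Set (ι → ℤ)} (h : ∀ r ∈ T, S.R r → 2 ∣ S.b μ r) {u : Γ ι Φ K} (hu : u ∈ S.U K T) :
    tm S K μ * u = u * tm S K μ := by
  have : S.U K T ≤ Subgroup.centralizer {tm S K μ} := U_le fun r h1 h2 t => by
    rw [Subgroup.mem_centralizer_singleton_iff, eq_comm, ← mul_inv_eq_iff_eq_mul, tm_X μ h2, sg_even (h r h1 h2),
      one_mul]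
  exact (Subgroup.mem_centralizer_singleton_iff.mp (this hu)).symm

theorem tm_conjU (μ : ι → ℤ) {T : Set (ι → ℤ)} {u : Γ ι Φ K} (hu : u ∈ S.U K T) :
    tm S K μ * u * (tm S K μ)⁻¹ ∈ S.U K T := (mon_tm μ).conjU (fun _ h _ => h) hu

theorem idl_gt (f : (ι → ℤ) →+ ℤ) {r : ι → ℤ} (h : 0 < f r) : S.Idl {r} {v | f r < f v} :=
  idl_of f (by rintro _ rfl _; omega) (fun s h1 _ => by have : f r < f s := h1; omega) (by
    rintro _ rfl s h1 _ _ _
    have : f _ < f s := h1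
    simp only [Set.mem_setOf_eq, map_add]; omega)

theorem co_lead {f : (ι → ℤ) →+ ℤ} {r : ι → ℤ} (hr : S.R r) (h : 0 < f r) (s : K) {x1 x2 : Γ ι Φ K}
    (h1 : x1 ∈ S.U K {v | f r < f v}) (h2 : x2 ∈ S.U K {v | f r < f v}) :
    S.co K r (((x1 * S.X K r s * x2 : Γ ι Φ K) : Module.End K (L ι Φ K)) (hh K r)) = -(2 * s) := by
  have h3 := mul_mem ((idl_gt f h).conj (inv_mem (X_mem (Set.mem_singleton r) hr s)) h1) h2
  have e : x1 * S.X K r s * x2 = S.X K r s * ((S.X K r s)⁻¹ * x1 * (S.X K r s)⁻¹⁻¹ * x2) := by group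
  rw [e]
  generalize (S.X K r s)⁻¹ * x1 * (S.X K r s)⁻¹⁻¹ * x2 = u at h3
  have h4 := U_Lge (l := f) (k := 0) (j := f r + 1) (by omega) (fun s h _ => h) h3 (hh_Lge (S := S) le_rfl r)
  have h5 := U_Lge' (l := f) (T := {r}) (by rintro _ rfl _; omega) (X_mem (Set.mem_singleton r) hr s) h4
  have h6 := co_Lge (s := r) (by omega) h5
  rw [map_sub, map_sub, ← Module.End.mul_apply, ← Units.val_mul, coe_X hr, xh, map_sub, co_hh,
    map_smul, co_e_self hr, hr.nrm, sub_eq_zero] at h6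
  rw [h6]; simp [mul_comm]

theorem peelE (h2K : (2 : K) ≠ 0) {f : (ι → ℤ) →+ ℤ} (hf : S.Gen f) {Es Ψ A : Set (ι → ℤ)}
    (hΨ : ∀ r, S.R r → (r ∈ Ψ ↔ ∀ μ ∈ Es, 2 ∣ S.b μ r)) {M : Subgroup (Γ ι Φ K)}
    (hA : ∀ r ∈ A, S.R r → 0 < f r → ∀ s, S.X K r s ∈ M)
    (hM : ∀ x ∈ M, ∀ r, S.R r → 0 < f r → r ∉ A → S.co K r ((x : Module.End K (L ι Φ K)) (hh K r)) = 0)
    {u : Γ ι Φ K} (hu : u ∈ S.Up K f) (h : ∀ μ ∈ Es, u⁻¹ * (tm S K μ * u * (tm S K μ)⁻¹) ∈ M) :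
    ∃ u1 ∈ S.U K {v | v ∈ Ψ ∧ 0 < f v}, ∃ m ∈ M, u = u1 * m := by
  obtain ⟨N, hN⟩ := (finite_R (S := S.toRS)).image f |>.bddAbove
  have key : ∀ j : ℕ, ∀ k : ℤ, 0 ≤ k → N ≤ k + j → ∀ u ∈ S.U K {v | k < f v},
      (∀ μ ∈ Es, u⁻¹ * (tm S K μ * u * (tm S K μ)⁻¹) ∈ M) →
      ∃ u1 ∈ S.U K {v | v ∈ Ψ ∧ 0 < f v}, ∃ m ∈ M, u = u1 * m := by
    intro j
    induction j with
    | zero =>
      intro k _ h1 u hu _
      have : u ∈ (⊥ : Subgroup (Γ ι Φ K)) := U_le (fun r h2 h3 _ => by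
        have := hN ⟨r, h3, rfl⟩
        have h4 : k < f r := h2
        simp at h1; omega) hu
      exact ⟨1, one_mem _, 1, one_mem _, by simpa using this⟩
    | succ j ih =>
      intro k hk h1 u hu h
      push_cast at h1
      by_cases hex : ∃ r, S.R r ∧ f r = k + 1
      swap
      · refine ih (k + 1) (by omega) (by omega) u (U_mono (fun r h1 h2 => ?_) hu) h
        have : f r ≠ k + 1 := fun h => hex ⟨r, h2, h⟩
        simp only [Set.mem_setOf_eq] at h1 ⊢; omega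
      obtain ⟨r, hr, hfr⟩ := hex
      have hsub : ∀ s ∈ {v | k < f v} \ {r}, S.R s → s ∈ {v | f r < f v} := fun s h1 h2 => by
        have h3 : f s ≠ f r := fun h => h1.2 (hf s r h2 hr h)
        have h4 : k < f s := h1.1
        simp only [Set.mem_setOf_eq]; omega
      obtain ⟨s, u', h3, rfl⟩ := peel hr (T := {v | k < f v}) (idl_of f
        (by rintro _ rfl _; omega) (fun s h1 h2 => by have : f r < f s := hsub s h1 h2; omega)
        (by
          rintro _ rfl s h1 _ h2 _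
          have : f _ < f s := hsub s h1 h2
          refine ⟨by simp only [Set.mem_setOf_eq, map_add]; omega, fun h => ?_⟩
          have h3 : f (_ + s) = f _ := congrArg f h
          rw [map_add] at h3; omega)) hu
      replace h3 := U_mono hsub h3
      by_cases hrΨ : r ∈ Ψ
      · obtain ⟨u1, h4, m, h5, h6⟩ := ih (k + 1) (by omega) (by omega) u' (hfr ▸ h3) fun μ hμ => by
          have h7 := tm_X (K := K) μ hr s
          rw [sg_even ((hΨ r hr).mp hrΨ μ hμ), one_mul] at h7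
          have h8 := h μ hμ
          have : (S.X K r s * u')⁻¹ * (tm S K μ * (S.X K r s * u') * (tm S K μ)⁻¹) =
            u'⁻¹ * (S.X K r s)⁻¹ * (tm S K μ * S.X K r s * (tm S K μ)⁻¹) * (tm S K μ * u' * (tm S K μ)⁻¹) := by group
          rw [this, h7] at h8
          simpa using h8
        exact ⟨_, mul_mem (X_mem (show r ∈ {v | v ∈ Ψ ∧ 0 < f v} from ⟨hrΨ, by omega⟩) hr s) h4, m, h5,
          by rw [h6, mul_assoc]⟩
      by_cases hrA : r ∈ A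
      · have h4 := (idl_gt f (by omega : 0 < f r)).conj (X_mem (Set.mem_singleton r) hr s) h3
        obtain ⟨u1, h5, m, h6, h7⟩ := ih (k + 1) (by omega) (by omega) _ (hfr ▸ h4) fun μ hμ => by
          have h8 := mul_mem (mul_mem (hA r hrA hr (by omega) s) (h μ hμ))
            (inv_mem (hA r hrA hr (by omega) (sg K (S.b μ r) * s)))
          rw [← tm_X μ hr] at h8
          convert h8 using 1; group
        exact ⟨u1, h5, _, mul_mem h6 (hA r hrA hr (by omega) s), by rw [← mul_assoc, ← h7]; group⟩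
      · obtain ⟨μ, hμ, h4⟩ : ∃ μ ∈ Es, ¬ 2 ∣ S.b μ r := by
          by_contra h5
          push Not at h5
          exact hrΨ ((hΨ r hr).mpr h5)
        have h5 := hM _ (h μ hμ) r hr (by omega) hrA
        have h6 : (S.X K r s * u')⁻¹ * (tm S K μ * (S.X K r s * u') * (tm S K μ)⁻¹) =
            u'⁻¹ * S.X K r (-s + -s) * (tm S K μ * u' * (tm S K μ)⁻¹) := by
          have h7 := tm_X (K := K) μ hr s
          rw [sg_odd h4, neg_one_mul] at h7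
          rw [← X_add hr]
          nth_rewrite 2 [← h7]
          rw [← X_inv hr]; group
        rw [h6, co_lead hr (by omega) _ (inv_mem h3) (tm_conjU μ h3)] at h5
        have h7 : s = 0 := by
          have : (2 : K) * (2 * s) = 0 := by linear_combination h5
          simpa [h2K] using this
        rw [h7, X_zero hr, one_mul] at h ⊢
        exact ih (k + 1) (by omega) (by omega) u' (hfr ▸ h3) h
  exact key N.toNat 0 le_rfl (by omega) u hu h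

theorem rel_bruhat (h2K : (2 : K) ≠ 0) {f : (ι → ℤ) →+ ℤ} (hf : S.Gen f)
    {κ : Type*} {μ μ' : κ → ι → ℤ} {Ψ : Set (ι → ℤ)}
    (hΨ : ∀ r, S.R r → (r ∈ Ψ ↔ ∀ i, 2 ∣ S.b (μ i) r)) (hΨ' : ∀ r, S.R r → (r ∈ Ψ ↔ ∀ i, 2 ∣ S.b (μ' i) r))
    {g : Γ ι Φ K} (hg : g ∈ S.U K Set.univ) (h : ∀ i, g * tm S K (μ' i) = tm S K (μ i) * g) :
    ∃ u1 ∈ S.U K {v | v ∈ Ψ ∧ 0 < f v}, ∃ n ∈ S.NK K, ∃ u2 ∈ S.U K {v | v ∈ Ψ ∧ 0 < f v},
      g = u1 * n * u2 ∧ ∀ i, n * tm S K (μ' i) = tm S K (μ i) * n := by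
  obtain ⟨u, hu, n, hn, u', hu', e⟩ := bruhat hf isNK hg (one_mem _)
  rw [mul_one] at e
  obtain ⟨w, χ, hw⟩ := isNK.mon n hn
  have h1 : ∀ i, n * tm S K (μ' i) * ((tm S K (μ' i))⁻¹ * u' * (tm S K (μ' i))⁻¹⁻¹ * u'⁻¹) =
      (u⁻¹ * (tm S K (μ i) * u * (tm S K (μ i))⁻¹)) * (tm S K (μ i) * n) := fun i => by
    have : n * tm S K (μ' i) * ((tm S K (μ' i))⁻¹ * u' * (tm S K (μ' i))⁻¹⁻¹ * u'⁻¹) =
      u⁻¹ * (u * n * u' * tm S K (μ' i)) * u'⁻¹ := by group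
    rw [this, ← e, h i, e]; group
  have h2 : ∀ i, (tm S K (μ' i))⁻¹ * u' * (tm S K (μ' i))⁻¹⁻¹ * u'⁻¹ ∈ S.Up K f := fun i =>
    mul_mem (by rw [tm_inv (S := S) (K := K) (μ' i)]; exact tm_conjU _ hu') (inv_mem hu')
  have h3 : ∀ i, u⁻¹ * (tm S K (μ i) * u * (tm S K (μ i))⁻¹) ∈ S.Up K f := fun i =>
    mul_mem (inv_mem hu) (tm_conjU _ hu)
  have h4 : ∀ i, n * tm S K (μ' i) = tm S K (μ i) * n := fun i => by
    have g1 := hw.mul (mon_tm (S := S) (K := K) (μ' i))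
    have g2 := (mon_tm (S := S) (K := K) (μ i)).mul hw
    have := bruhat_unique g1 g2 (h2 i) (h3 i) (h1 i)
    exact g1.eq g2 (fun _ => by simp) fun a ha => (this a ha).2
  obtain ⟨u1, h5, m, h6, h7⟩ := peelE h2K hf (Es := Set.range μ) (Ψ := Ψ) (A := {r | 0 < f (hw.wi r)})
    (fun r hr => by simpa using hΨ r hr) (M := (S.Up K f).comap (MulAut.conj n⁻¹).toMonoidHom)
    (fun r h5 hr _ s => by
      show n⁻¹ * S.X K r s * n⁻¹⁻¹ ∈ S.Up K f
      rw [hw.inv.conj' hr]; exact X_mem (show hw.wi r ∈ {v | 0 < f v} from h5) (hw.inv.root r hr) _)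
    (fun x hx r hr _ h5 => by
      have h6 : n⁻¹ * x * n⁻¹⁻¹ ∈ S.Up K f := hx
      have h7 := co_Lge (s := hw.wi r) (lt_of_le_of_ne (not_lt.mp h5) (hf.ne (hw.inv.root r hr)))
        (U_Lge' (fun r h _ => le_of_lt h) h6 (hh_Lge le_rfl (hw.wi r)))
      rw [inv_inv, Units.val_mul, Units.val_mul, Module.End.mul_apply, Module.End.mul_apply, hw.hh, hw.w_wi,
        hw.inv.co] at h7
      exact (mul_eq_zero.mp h7).resolve_left (hw.inv.χne r)) hu (by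
      rintro _ ⟨i, rfl⟩
      show n⁻¹ * (u⁻¹ * (tm S K (μ i) * u * (tm S K (μ i))⁻¹)) * n⁻¹⁻¹ ∈ S.Up K f
      have h5 := tm_conjU (μ' i) (h2 i)
      have h6 : n⁻¹ * (u⁻¹ * (tm S K (μ i) * u * (tm S K (μ i))⁻¹)) * n⁻¹⁻¹ =
          n⁻¹ * ((u⁻¹ * (tm S K (μ i) * u * (tm S K (μ i))⁻¹)) * (tm S K (μ i) * n)) *
            (n⁻¹ * (tm S K (μ i) * n))⁻¹ := by group
      rw [h6, ← h1 i, ← h4 i]
      convert h5 using 1; group)
  have h8 : n⁻¹ * m * n⁻¹⁻¹ * u' ∈ S.Up K f := mul_mem h6 hu'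
  have e2 : g = u1 * n * (n⁻¹ * m * n⁻¹⁻¹ * u') := by rw [e, h7]; group
  generalize n⁻¹ * m * n⁻¹⁻¹ * u' = u2 at h8 e2
  obtain ⟨u3, h9, m', h10, h11⟩ := peelE h2K hf (Es := Set.range μ') (Ψ := Ψ) (A := ∅)
    (fun r hr => by simpa using hΨ' r hr) (M := ⊥) (by simp)
    (fun x hx r hr _ _ => by rw [Subgroup.mem_bot.mp hx]; exact co_hh _ _) h8 (by
      rintro _ ⟨i, rfl⟩
      have h9 := tm_U (fun r h hr => (hΨ r hr).mp h.1 i) h5
      have h10 := h i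
      rw [e2] at h10
      have : u1 * n * (u2 * tm S K (μ' i)) = u1 * n * (tm S K (μ' i) * u2) := by
        rw [← mul_assoc, h10, ← mul_assoc, ← mul_assoc, h9, mul_assoc u1, ← h4 i]; group
      rw [Subgroup.mem_bot, ← mul_left_cancel this]; group)
  rw [Subgroup.mem_bot.mp h10, mul_one] at h11
  exact ⟨u1, h5, n, hn, u2, h11 ▸ h9, e2, h4⟩

end Cfsg.Agent.H9.E8
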