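import Cfsg.Agent.H9.E8.R1

set_option autoImplicit false
set_option linter.unusedSectionVars false
set_option linter.deprecated false

/-! Involutions centralising a toral elementary abelian 2-group. -/

namespace Cfsg.Agent.H9.E8

open Cfsg.Agent.H4.Sl Cfsg.Agent.LD.E8 Cfsg.Agent.LD.E8.SR
open Cfsg.Agent.H4.Sl.RS (L hh Γ lin_ext finite_R co_e_self co_e_ne co_hh b_σ b_σ' σ_apply σ_self σ_σ σ_bij R_ρ
  sum_R lin_eq_of_roots mkL_e mkL_hh)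

variable {ι Φ : Type} [Fintype ι] [DecidableEq ι] [Fintype Φ] [DecidableEq Φ] (S : SR ι Φ)
variable {K : Type*} [Field K]

def Φs (Ψ : AddSubgroup (ι → ℤ)) : Type := {a : Φ // S.ρ a ∈ Ψ}

instance Φs_fin (Ψ : AddSubgroup (ι → ℤ)) : Finite (Φs S Ψ) := by unfold Φs; infer_instance
noncomputable instance Φs_ft (Ψ : AddSubgroup (ι → ℤ)) : Fintype (Φs S Ψ) := Fintype.ofFinite _
noncomputable instance Φs_de (Ψ : AddSubgroup (ι → ℤ)) : DecidableEq (Φs S Ψ) := Classical.decEq _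

def sub (Ψ : AddSubgroup (ι → ℤ)) : SR ι (Φs S Ψ) where
  b := S.b
  ρ a := S.ρ a.1
  inj _ _ h := Subtype.ext (S.inj h)
  symm := S.symm
  pos := S.pos
  norm r := S.norm r.1
  neg r := by
    obtain ⟨s, hs⟩ := S.neg r.1
    exact ⟨⟨s, hs ▸ neg_mem r.2⟩, hs⟩
  add r s h := by
    obtain ⟨u, hu⟩ := S.add r.1 s.1 h
    exact ⟨⟨u, hu ▸ add_mem r.2 s.2⟩, hu⟩
  odd r := S.odd r.1
  β := S.β
  βs := S.βs

variable {S}

theorem sub_R {Ψ : AddSubgroup (ι → ℤ)} {v : ι → ℤ} : (sub S Ψ).R v ↔ S.R v ∧ v ∈ Ψ :=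
  ⟨fun ⟨a, h⟩ => ⟨⟨a.1, h⟩, h ▸ a.2⟩, fun ⟨⟨a, h⟩, h'⟩ => ⟨⟨a, h ▸ h'⟩, h⟩⟩

theorem sub_σ (Ψ : AddSubgroup (ι → ℤ)) (r : ι → ℤ) : (sub S Ψ).σ r = S.σ r := rfl

theorem σ_mem {Ψ : AddSubgroup (ι → ℤ)} {r v : ι → ℤ} (hr : r ∈ Ψ) (hv : v ∈ Ψ) : S.σ r v ∈ Ψ := by
  rw [σ_apply]; exact sub_mem hv (zsmul_mem hr _)

theorem nn_mem {Ψ : AddSubgroup (ι → ℤ)} {r : ι → ℤ} (hr : S.R r) (h : r ∈ Ψ) (t : K) : S.nn r t ∈ S.U K Ψ :=
  mul_mem (mul_mem (X_mem h hr _) (X_mem (show -r ∈ (Ψ : Set (ι → ℤ)) from neg_mem h) hr.ng _)) (X_mem h hr _)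

theorem rel_inv (h2K : (2 : K) ≠ 0) (hsq : ∀ c : K, ∃ d, d * d = c) {f : (ι → ℤ) →+ ℤ} (hf : S.Gen f)
    (Ψ : AddSubgroup (ι → ℤ)) (k : ℕ) : ∀ (t n u u' : Γ ι Φ K) w χ, n ∈ S.NK K → S.Mon n w χ →
      (∀ v, S.R v → v ∈ Ψ → w v ∈ Ψ) → u ∈ S.U K {v | v ∈ Ψ ∧ 0 < f v} → u' ∈ S.U K {v | v ∈ Ψ ∧ 0 < f v} →
      t = u * n * u' → t * t = 1 → ((sub S Ψ).Inv f w).ncard < k →
      ∃ c ∈ S.U K Ψ, ∃ n ∈ S.NK K, ∃ w χ, S.Mon n w χ ∧
        (∀ v, S.R v → v ∈ Ψ → 0 < f v → w v ∈ Ψ ∧ 0 < f (w v)) ∧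
        ∃ v ∈ S.U K {v | v ∈ Ψ ∧ 0 < f v}, c⁻¹ * t * c = n * v := by
  have hf' : (sub S Ψ).Gen f := fun r s hr hs => hf r s (sub_R.mp hr).1 (sub_R.mp hs).1
  have hPΨ : S.U K {v | v ∈ Ψ ∧ 0 < f v} ≤ S.U K Ψ := U_mono fun r h _ => h.1
  have hPU : S.U K {v | v ∈ Ψ ∧ 0 < f v} ≤ S.Up K f := U_mono fun r h _ => h.2
  induction k with
  | zero => intro _ _ _ _ _ _ _ _ _ _ _ _ _ h; exact absurd h (Nat.not_lt_zero _)
  | succ k ih =>
  intro t n u u' w χ hn hw hwΨ hu hu' e h2 hk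
  suffices h : ∃ c ∈ S.U K Ψ, ∃ n' ∈ S.NK K, ∃ w χ, S.Mon n' w χ ∧
        (∀ v, S.R v → v ∈ Ψ → 0 < f v → w v ∈ Ψ ∧ 0 < f (w v)) ∧
        ∃ v ∈ S.U K {v | v ∈ Ψ ∧ 0 < f v}, c⁻¹ * (n * (u' * u)) * c = n' * v by
    obtain ⟨c, hc, n', h1, w', χ', h3, h4, v, h5, h6⟩ := h
    exact ⟨u * c, mul_mem (hPΨ hu) hc, n', h1, w', χ', h3, h4, v, h5, by rw [e, ← h6]; group⟩
  have hv : u' * u ∈ S.U K {v | v ∈ Ψ ∧ 0 < f v} := mul_mem hu' hu
  have h3 : n * (u' * u) * (n * (u' * u)) = 1 := by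
    have : n * (u' * u) * (n * (u' * u)) = u⁻¹ * (t * t) * u := by rw [e]; group
    rw [this, h2]; group
  generalize u' * u = v at hv h3
  by_cases hI : ((sub S Ψ).Inv f w).Nonempty
  swap
  · refine ⟨1, one_mem _, n, hn, w, χ, hw, fun a ha h4 h5 => ⟨hwΨ a ha h4, ?_⟩, v, hv, by group⟩
    rcases lt_or_gt_of_ne (hf.ne (hw.root a ha)) with h6 | h6
    · exact absurd ⟨a, sub_R.mpr ⟨ha, h4⟩, h5, h6⟩ hI
    · exact h6
  obtain ⟨α, hα, hwα⟩ := exists_simple hI.some_mem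
  obtain ⟨hαR, hαΨ⟩ := sub_R.mp hα.1
  have hα0 : 0 < f α := hα.2.1
  have e1 : n * v = v⁻¹ * n⁻¹ := by rw [← mul_inv_rev]; exact eq_inv_of_mul_eq_one_left h3
  have hww : ∀ a, S.R a → w (w a) = a := fun a ha => by
    have := (bruhat_unique hw hw.inv (hPU hv) (inv_mem (hPU hv)) e1 a ha).1
    rw [this, hw.w_wi]
  set T : Set (ι → ℤ) := {v | v ∈ Ψ ∧ 0 < f v} \ {α} with hT
  have hTT : S.Idl T T := idl_of f (fun r h _ => h.1.2.le) (fun s h _ => h.1.2) fun r h4 s h5 hr hs _ =>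
    ⟨⟨add_mem h4.1.1 h5.1.1, by
      have h6 : 0 < f r := h4.1.2; have h7 : 0 < f s := h5.1.2; simp only [map_add]; omega⟩,
      hα.2.2 r s (sub_R.mpr ⟨hr, h4.1.1⟩) (sub_R.mpr ⟨hs, h5.1.1⟩) h4.1.2 h5.1.2⟩
  have hTU : S.U K T ≤ S.U K {v | v ∈ Ψ ∧ 0 < f v} := U_mono fun r h _ => h.1
  have hsi : S.Idl {α} T := idl_of f (by rintro _ rfl _; exact hα0.le) (fun s h1 _ => h1.1.2) (by
    rintro _ rfl s h1 _ _ _
    have h2 : 0 < f s := h1.1.2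
    refine ⟨⟨add_mem hαΨ h1.1.1, by simp only [map_add]; omega⟩, fun h4 => ?_⟩
    have h5 : f (_ + s) = f _ := congrArg f h4
    rw [map_add] at h5; omega)
  have hvT : v ∈ S.U K T := by
    obtain ⟨s, v1, h4, h5⟩ := peel hαR hsi hv
    have h6 : S.co K (w α) (((n * v : Γ ι Φ K) : Module.End K (L ι Φ K)) (hh K α)) = 0 := by
      rw [e1, Units.val_mul, Module.End.mul_apply, hw.inv.hh]
      exact co_Lge hwα (U_Lge' (fun r h _ => le_of_lt h) (inv_mem (hPU hv)) (hh_Lge le_rfl _))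
    rw [Units.val_mul, Module.End.mul_apply, hw.co, h5, Units.val_mul, Module.End.mul_apply, coe_X hαR] at h6
    have h7 := co_V (s := α) (fun h => h.2 rfl) (hsi.X_V (Set.mem_singleton α) hαR s (hTT.U_hh h4 α))
    rw [map_sub, map_sub, (mul_eq_zero.mp h6).resolve_left (hw.χne α), xh, map_sub, co_hh, map_smul,
      co_e_self hαR, hαR.nrm] at h7
    have h8 : s = 0 := by
      push_cast at h7
      simpa [h2K] using h7
    rw [h5, h8, X_zero hαR, one_mul]; exact h4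
  have hσT : ∀ r ∈ T, S.R r → S.σ α r ∈ T := fun r h4 h5 =>
    ⟨⟨σ_mem hαΨ h4.1.1, hα.refl hf' (sub_R.mpr ⟨h5, h4.1.1⟩) h4.1.2 h4.2⟩, fun h6 => by
      have := congrArg (S.σ α) (show S.σ α r = α from h6)
      rw [σ_σ hαR, σ_self hαR] at this
      have h7 : 0 < f r := h4.1.2
      rw [this, map_neg] at h7; omega⟩
  have hlt := Inv_lt hf' hα hwα
  rw [sub_σ] at hlt
  by_cases hc : w α = -α
  · obtain ⟨d, hd⟩ := hsq (-χ (-α))
    have hd0 : d ≠ 0 := by rintro rfl; exact hw.χne (-α) (by simpa using hd.symm)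
    have hI2 : S.Idl {-α} T := by
      rintro _ rfl s h4 _ h5
      refine ⟨by rw [neg_neg]; exact h4.2, fun hb => ?_⟩
      have := hσT s h4 h5
      simp only [map_neg, LinearMap.neg_apply, neg_eq_iff_eq_neg, neg_neg] at hb
      rw [σ_apply, hb] at this
      convert this using 1; module
    have h4 := hI2.conj (X_mem (Set.mem_singleton _) hαR.ng d⁻¹) hvT
    have h5 := hw.conj hαR.ng (-d⁻¹)
    rw [map_neg, hc, neg_neg, show χ (-α) * -d⁻¹ = d by field_simp; linear_combination -hd] at h5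
    obtain ⟨c, hc', n', g1, w', χ', g2, g3, v', g4, h6⟩ :=
      ih (S.X K (-α) d⁻¹ * (n * v) * (S.X K (-α) d⁻¹)⁻¹) (S.nn α d * n) (S.X K α (-d)) _
      _ _ (mul_mem (isNK.nn α hαR d hd0) hn) ((mon_nn hαR hd0).mul hw)
      (fun z hz h7 => σ_mem hαΨ (hwΨ z hz h7))
      (X_mem (show α ∈ {v | v ∈ Ψ ∧ 0 < f v} from ⟨hαΨ, hα0⟩) hαR _) (hTU h4)
      (by
        have h7 : n = S.X K α d * n * S.X K (-α) d⁻¹ := by
          rw [← h5, mul_assoc, X_add hαR.ng, neg_add_cancel, X_zero hαR.ng, mul_one]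
        rw [nn, ← X_inv hαR]
        nth_rewrite 1 [h7]; group)
      (by
        have : S.X K (-α) d⁻¹ * (n * v) * (S.X K (-α) d⁻¹)⁻¹ * (S.X K (-α) d⁻¹ * (n * v) * (S.X K (-α) d⁻¹)⁻¹) =
          S.X K (-α) d⁻¹ * (n * v * (n * v)) * (S.X K (-α) d⁻¹)⁻¹ := by group
        rw [this, h3]; group)
      (by
        have : S.σ α ∘ₗ w = w ∘ₗ S.σ α := LinearMap.ext fun z => by
          have h7 := hw.iso α z
          rw [hc, map_neg, LinearMap.neg_apply, neg_eq_iff_eq_neg] at h7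
          simp only [LinearMap.comp_apply, σ_apply, map_sub, map_smul, hc, h7]; module
        rw [this]; omega)
    exact ⟨(S.X K (-α) d⁻¹)⁻¹ * c, mul_mem (inv_mem
      (X_mem (show -α ∈ (Ψ : Set (ι → ℤ)) from neg_mem hαΨ) hαR.ng _)) hc', n', g1, w', χ', g2, g3, v', g4,
      by rw [← h6]; group⟩
  · have hm := mon_nn (K := K) hαR one_ne_zero
    have hmN := isNK.nn (K := K) α hαR 1 one_ne_zero
    have hm' := hm.inv.congr (w' := S.σ α) (fun z => by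
      rw [← hm.wi_w (S.σ α z), σ_σ hαR]) (fun _ => rfl)
    obtain ⟨c, hc', n', g1, w', χ', g2, g3, v', g4, h6⟩ :=
      ih (S.nn α 1 * (n * v) * (S.nn α 1)⁻¹) (S.nn α 1 * (n * (S.nn α 1)⁻¹)) 1 _
      _ _ (mul_mem hmN (mul_mem hn (inv_mem hmN))) (hm.mul (hw.mul hm'))
      (fun z hz h7 => σ_mem hαΨ (hwΨ _ (hαR.refl hz) (σ_mem hαΨ h7))) (one_mem _)
      (hTU (hm.conjU hσT hvT)) (by group)
      (by
        have : S.nn α 1 * (n * v) * (S.nn α (1 : K))⁻¹ * (S.nn α 1 * (n * v) * (S.nn α 1)⁻¹) =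
          S.nn α 1 * (n * v * (n * v)) * (S.nn α 1)⁻¹ := by group
        rw [this, h3]; group)
      (by
        have := Inv_le hf' hα (w := w ∘ₗ S.σ α) (fun z hz => by
            obtain ⟨h7, h8⟩ := sub_R.mp hz
            exact sub_R.mpr ⟨hw.root _ (hαR.refl h7), hwΨ _ (hαR.refl h7) (σ_mem hαΨ h8)⟩) fun z hz h7 h8 => by
          have h9 := congrArg w h8
          rw [LinearMap.comp_apply, hww _ (hαR.refl (sub_R.mp hz).1)] at h9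
          have h10 := hα.refl hf' (sub_R.mpr ⟨(hw.root α hαR).ng, neg_mem (hwΨ α hαR hαΨ)⟩) (by rw [map_neg]; omega)
            (fun h => hc (neg_eq_iff_eq_neg.mp h))
          rw [sub_σ, map_neg, ← h9, σ_σ hαR, map_neg] at h10; omega
        rw [sub_σ] at this
        omega)
    exact ⟨(S.nn α 1)⁻¹ * c, mul_mem (inv_mem (nn_mem hαR hαΨ 1)) hc', n', g1, w', χ', g2, g3, v', g4,
      by rw [← h6]; group⟩

/-- the lattice of vectors with even products with all `μ i` -/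
def Ev (S : SR ι Φ) {κ : Type*} (μ : κ → ι → ℤ) : AddSubgroup (ι → ℤ) where
  carrier := {v | ∀ i, 2 ∣ S.b (μ i) v}
  zero_mem' := by simp
  add_mem' h1 h2 i := by rw [map_add]; exact dvd_add (h1 i) (h2 i)
  neg_mem' h i := by rw [map_neg]; exact (dvd_neg).mpr (h i)

theorem mem_Ev {κ : Type*} {μ : κ → ι → ℤ} {v : ι → ℤ} : v ∈ Ev S μ ↔ ∀ i, 2 ∣ S.b (μ i) v := Iff.rfl

theorem Ev_comm {κ : Type*} {μ : κ → ι → ℤ} {c : Γ ι Φ K} (hc : c ∈ S.U K (Ev S μ)) (i : κ) :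
    tm S K (μ i) * c = c * tm S K (μ i) := by
  refine tm_U (fun r h _ => ?_) hc
  exact (mem_Ev (S := S) (μ := μ) (v := r)).mp h i

theorem mon_par (h2K : (2 : K) ≠ 0) {n : Γ ι Φ K} {w : (ι → ℤ) →ₗ[ℤ] (ι → ℤ)} {χ : (ι → ℤ) → K} (hw : S.Mon n w χ)
    {μ μ' : ι → ℤ} (h : n * tm S K μ' = tm S K μ * n) {a : ι → ℤ} (ha : S.R a) : 2 ∣ S.b (w μ') a - S.b μ a := by
  rw [mon_conj_tm hw] at h
  exact tm_inj h2K (mul_right_cancel h) ha

theorem rel_mon [CharP K 3] (hsq : ∀ c : K, ∃ d, d * d = c) (hb : ∀ i, S.R (Pi.single i 1))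
    {f : (ι → ℤ) →+ ℤ} (hf : S.Gen f) {κ : Type*} {μ : κ → ι → ℤ} {t : Γ ι Φ K} (ht : t ∈ S.U K Set.univ)
    (h2 : t * t = 1) (h : ∀ i, t * tm S K (μ i) = tm S K (μ i) * t) :
    ∃ c ∈ S.U K (Ev S μ), ∃ w χ, S.Mon (c⁻¹ * t * c) w χ ∧
      (∀ v, S.R v → v ∈ Ev S μ → 0 < f v → w v ∈ Ev S μ ∧ 0 < f (w v)) := by
  obtain ⟨u1, h1, n, hn, u2, h3, e, h4⟩ := rel_bruhat (two_ne K) hf (Ψ := Ev S μ) (fun _ _ => mem_Ev)
    (fun _ _ => mem_Ev) ht h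
  obtain ⟨w, χ, hw⟩ := isNK.mon n hn
  obtain ⟨c, hc, n', -, w', χ', hw', h5, v, hv, h6⟩ := rel_inv (two_ne K) hsq hf (Ev S μ) _ t n u1 u2 w χ hn hw
    (fun v hv h5 i => by
      have := mon_par (two_ne K) hw (h4 i) (hw.root v hv)
      have h6 := h5 i
      rw [hw.iso] at this; omega) h1 h3 e h2 (Nat.lt_succ_self _)
  have hPU : S.U K {v | v ∈ Ev S μ ∧ 0 < f v} ≤ S.Up K f := U_mono fun r h _ => h.2
  have h7 : n' * v * (n' * v) = 1 := by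
    rw [← h6]
    have : c⁻¹ * t * c * (c⁻¹ * t * c) = c⁻¹ * (t * t) * c := by group
    rw [this, h2]; group
  have h8 : n' * v * n'⁻¹ ∈ S.U K {v | v ∈ Ev S μ ∧ 0 < f v} :=
    hw'.conjU (fun r h hr => h5 r hr h.1 h.2) hv
  have h9 : n' * n' = 1 := by
    have g1 := hw'.mul hw'
    have := bruhat_unique g1 Mon.one (hPU hv) (hPU (inv_mem h8)) (by
      rw [mul_one, eq_inv_iff_mul_eq_one, ← one_mul (1 : Γ ι Φ K)]
      have : n' * n' * v * (n' * v * n'⁻¹) = n' * (n' * v * (n' * v)) * n'⁻¹ := by group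
      rw [this, h7]; group)
    exact g1.eq Mon.one (LinearMap.congr_fun (lin_eq_of_roots hb fun a ha => (this a ha).1))
      fun a ha => (this a ha).2
  have h10 : n' * v * n'⁻¹ = v⁻¹ := by
    rw [eq_inv_iff_mul_eq_one, inv_eq_of_mul_eq_one_right h9, ← h7]; group
  obtain ⟨k, hk⟩ := isPGroup_Up (S := S) (K := K) f ⟨v, hPU hv⟩
  have hk' : v ^ 3 ^ k = 1 := congrArg Subtype.val hk
  obtain ⟨m, hm⟩ : Odd (3 ^ k) := Odd.pow (by decide)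
  have h11 : v ^ (m + 1) * v ^ (m + 1) = v := by
    rw [← pow_add, show m + 1 + (m + 1) = 3 ^ k + 1 by omega, pow_succ, hk', one_mul]
  have h12 : n' * v ^ (m + 1) * n'⁻¹ = (v ^ (m + 1))⁻¹ := by rw [← conj_pow, h10, inv_pow]
  have hs : v ^ (m + 1) ∈ S.U K (Ev S μ) := pow_mem (U_mono (fun r h _ => h.1) hv) _
  generalize v ^ (m + 1) = s at h11 h12 hs
  refine ⟨c * s⁻¹, mul_mem hc (inv_mem hs), w', χ', ?_, h5⟩
  have : (c * s⁻¹)⁻¹ * t * (c * s⁻¹) = n' := by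
    have h13 : (c * s⁻¹)⁻¹ * t * (c * s⁻¹) = s * (c⁻¹ * t * c) * s⁻¹ := by group
    rw [h13, h6, ← h11]
    have h14 : s * (n' * (s * s)) * s⁻¹ = s * (n' * s * n'⁻¹) * n' := by group
    rw [h14, h12]; group
  rwa [this]

end Cfsg.Agent.H9.E8
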