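import Mathlib

set_option autoImplicit false
set_option linter.unusedSectionVars false

/-! Integer traces of involutions. -/

namespace Cfsg.Agent.H9.E8

open Module

section
variable {K V : Type*} [Field K] [AddCommGroup V] [Module K V] [FiniteDimensional K V]

def Ep (g : Module.End K V) : Submodule K V := LinearMap.ker (g - 1)
def Em (g : Module.End K V) : Submodule K V := LinearMap.ker (g + 1)

theorem mem_Ep {g : Module.End K V} {y : V} : y ∈ Ep g ↔ g y = y := by simp [Ep, sub_eq_zero]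
theorem mem_Em {g : Module.End K V} {y : V} : y ∈ Em g ↔ g y = -y := by simp [Em, add_eq_zero_iff_eq_neg]

noncomputable def τ (X : Submodule K V) (g : Module.End K V) : ℤ :=
  (finrank K ↥(X ⊓ Ep g) : ℤ) - finrank K ↥(X ⊓ Em g)

theorem fr_split (h2 : (2 : K) ≠ 0) {b : Module.End K V} (hb : b * b = 1) {Y : Submodule K V}
    (hY : ∀ y ∈ Y, b y ∈ Y) : finrank K Y = finrank K ↥(Y ⊓ Ep b) + finrank K ↥(Y ⊓ Em b) := by
  have hbb : ∀ y, b (b y) = y := fun y => by rw [← Module.End.mul_apply, hb]; rfl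
  have h1 : (Y ⊓ Ep b) ⊔ (Y ⊓ Em b) = Y := by
    refine le_antisymm (sup_le inf_le_left inf_le_left) fun y hy => ?_
    have : y = (2 : K)⁻¹ • (y + b y) + (2 : K)⁻¹ • (y - b y) := by
      rw [← smul_add, show y + b y + (y - b y) = (2 : K) • y by module, smul_smul, inv_mul_cancel₀ h2, one_smul]
    rw [this]
    refine Submodule.add_mem_sup (Submodule.smul_mem _ _ ⟨add_mem hy (hY y hy), mem_Ep.mpr ?_⟩)
      (Submodule.smul_mem _ _ ⟨sub_mem hy (hY y hy), mem_Em.mpr ?_⟩)
    · rw [map_add, hbb, add_comm]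
    · rw [map_sub, hbb, neg_sub]
  have h3 : (Y ⊓ Ep b) ⊓ (Y ⊓ Em b) = ⊥ := by
    rw [eq_bot_iff]
    rintro y ⟨⟨_, h3⟩, _, h4⟩
    have h5 := (mem_Ep.mp h3).symm.trans (mem_Em.mp h4)
    have : (2 : K) • y = 0 := by rw [two_smul]; exact add_eq_zero_iff_eq_neg.mpr h5
    exact (smul_eq_zero.mp this).resolve_left h2
  have := Submodule.finrank_sup_add_finrank_inf_eq (Y ⊓ Ep b) (Y ⊓ Em b)
  rw [h1, h3, finrank_bot] at this
  omega

theorem τ_split (h2 : (2 : K) ≠ 0) {a b : Module.End K V} (hb : b * b = 1) (hab : a * b = b * a)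
    {X : Submodule K V} (hX : ∀ y ∈ X, b y ∈ X) : τ X a = τ (X ⊓ Ep b) a + τ (X ⊓ Em b) a := by
  have hc : ∀ y, a (b y) = b (a y) := fun y => by rw [← Module.End.mul_apply, hab]; rfl
  have h1 := fr_split h2 hb (Y := X ⊓ Ep a) fun y hy => ⟨hX y hy.1, mem_Ep.mpr (by rw [hc, mem_Ep.mp hy.2])⟩
  have h3 := fr_split h2 hb (Y := X ⊓ Em a) fun y hy =>
    ⟨hX y hy.1, mem_Em.mpr (by rw [hc, mem_Em.mp hy.2, map_neg])⟩
  rw [inf_right_comm X (Ep a), inf_right_comm X (Ep a)] at h1
  rw [inf_right_comm X (Em a), inf_right_comm X (Em a)] at h3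
  unfold τ
  rw [h1, h3]; push_cast; ring

theorem τ_congr {a a' : Module.End K V} {X : Submodule K V} (h : ∀ y ∈ X, a y = a' y) : τ X a = τ X a' := by
  have h1 : X ⊓ Ep a = X ⊓ Ep a' := by
    ext y; simp only [Submodule.mem_inf, mem_Ep]; exact and_congr_right fun hy => by rw [h y hy]
  have h2 : X ⊓ Em a = X ⊓ Em a' := by
    ext y; simp only [Submodule.mem_inf, mem_Em]; exact and_congr_right fun hy => by rw [h y hy]
  rw [τ, τ, h1, h2]

theorem τ_neg (a : Module.End K V) (X : Submodule K V) : τ X (-a) = -τ X a := by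
  have h1 : Ep (-a) = Em a := by ext y; simp [mem_Ep, mem_Em, neg_eq_iff_eq_neg]
  have h2 : Em (-a) = Ep a := by ext y; simp [mem_Ep, mem_Em]
  rw [τ, τ, h1, h2]; ring

theorem τ_avg (h2 : (2 : K) ≠ 0) {a b : Module.End K V} (hb : b * b = 1) (hab : a * b = b * a)
    {X : Submodule K V} (hX : ∀ y ∈ X, b y ∈ X) {c : ℤ} (h1 : τ X a = c) (h3 : τ X (a * b) = c) :
    τ (X ⊓ Ep b) a = c := by
  rw [τ_split h2 hb hab hX] at h1
  rw [τ_split h2 hb (by rw [← mul_assoc, ← hab]) hX,
    τ_congr (a := a * b) (a' := a) (fun y hy => by rw [Module.End.mul_apply, mem_Ep.mp hy.2]),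
    τ_congr (a := a * b) (a' := -a) (X := X ⊓ Em b)
      (fun y hy => by rw [Module.End.mul_apply, mem_Em.mp hy.2]; simp), τ_neg] at h3
  omega

theorem fr_le {J : Module.End K V} (hJ : Function.Injective J) {A B : Submodule K V} (h : ∀ y ∈ A, J y ∈ B) :
    finrank K A ≤ finrank K B :=
  LinearMap.finrank_le_finrank_of_injective (f := J.restrict h) fun x y e =>
    Subtype.ext (hJ (congrArg Subtype.val e))

theorem τ_J {a J : Module.End K V} (hJ : Function.Injective J) {X : Submodule K V} (hX : ∀ y ∈ X, J y ∈ X)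
    (h : ∀ y ∈ X, a (J y) = -J (a y)) : τ X a = 0 := by
  have h1 := fr_le hJ (A := X ⊓ Ep a) (B := X ⊓ Em a) fun y hy =>
    ⟨hX y hy.1, mem_Em.mpr (by rw [h y hy.1, mem_Ep.mp hy.2])⟩
  have h2 := fr_le hJ (A := X ⊓ Em a) (B := X ⊓ Ep a) fun y hy =>
    ⟨hX y hy.1, mem_Ep.mpr (by rw [h y hy.1, mem_Em.mp hy.2, map_neg, neg_neg])⟩
  unfold τ; omega

theorem τ_conj (c g : (Module.End K V)ˣ) : τ ⊤ ((c⁻¹ * g * c : (Module.End K V)ˣ) : Module.End K V) =
    τ ⊤ (g : Module.End K V) := by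
  have key : ∀ c g : (Module.End K V)ˣ,
      finrank K ↥(⊤ ⊓ Ep ((c⁻¹ * g * c : (Module.End K V)ˣ) : Module.End K V)) ≤
        finrank K ↥(⊤ ⊓ Ep (g : Module.End K V)) ∧
      finrank K ↥(⊤ ⊓ Em ((c⁻¹ * g * c : (Module.End K V)ˣ) : Module.End K V)) ≤
        finrank K ↥(⊤ ⊓ Em (g : Module.End K V)) := fun c g => by
    have h1 : Function.Injective (c : Module.End K V) := ((Module.End.isUnit_iff _).mp c.isUnit).1
    have h2 : ∀ y, (g : Module.End K V) ((c : Module.End K V) y) =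
        (c : Module.End K V) (((c⁻¹ * g * c : (Module.End K V)ˣ) : Module.End K V) y) := fun y => by
      rw [← Module.End.mul_apply, ← Module.End.mul_apply, ← Units.val_mul, ← Units.val_mul]
      congr 2; group
    exact ⟨fr_le h1 fun y hy => ⟨trivial, mem_Ep.mpr (by rw [h2, mem_Ep.mp hy.2])⟩,
      fr_le h1 fun y hy => ⟨trivial, mem_Em.mpr (by rw [h2, mem_Em.mp hy.2, map_neg])⟩⟩
  have h1 := key c g
  have h2 := key c⁻¹ (c⁻¹ * g * c)
  rw [show c⁻¹⁻¹ * (c⁻¹ * g * c) * c⁻¹ = g by group] at h2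
  unfold τ; omega

theorem τ_bd (a : Module.End K V) (X : Submodule K V) :
    τ X a ≤ finrank K X ∧ (-(finrank K X : ℤ) < τ X a ∨ X ≤ Em a) := by
  have h1 := Submodule.finrank_mono (inf_le_left : X ⊓ Ep a ≤ X)
  have h2 := Submodule.finrank_mono (inf_le_left : X ⊓ Em a ≤ X)
  refine ⟨by unfold τ; omega, ?_⟩
  by_cases h : finrank K ↥(X ⊓ Em a) = finrank K X
  · exact Or.inr (inf_eq_left.mp (Submodule.eq_of_le_of_finrank_eq inf_le_left h))
  · left; unfold τ; omega

end

section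
variable {K n : Type*} [Field K] [Fintype n] [DecidableEq n]

theorem fr_diag [DecidableEq K] {g : Module.End K (n → K)} {d : n → K} (h : ∀ y k, g y k = d k * y k) :
    finrank K (LinearMap.ker g) = (Finset.univ.filter fun k => d k = 0).card := by
  have h1 : g = Matrix.toLin' (Matrix.diagonal d) := LinearMap.ext fun y => funext fun k => by
    rw [h, Matrix.toLin'_apply, Matrix.mulVec_diagonal]
  have h2 := LinearMap.finrank_range_add_finrank_ker g
  have h3 : finrank K (LinearMap.range g) = Fintype.card {k // d k ≠ 0} := by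
    rw [← Matrix.rank_diagonal, h1]; rfl
  rw [h3, Module.finrank_fintype_fun_eq_card, Fintype.card_subtype] at h2
  have := Finset.card_filter_add_card_filter_not (s := Finset.univ) (fun k => d k = 0)
  rw [Finset.card_univ] at this
  simp only [ne_eq] at h2
  omega

theorem τ_diag (h2 : (2 : K) ≠ 0) {g : Module.End K (n → K)} (p : n → Prop) [DecidablePred p]
    (h : ∀ y k, g y k = if p k then y k else -y k) :
    finrank K (Ep g) = (Finset.univ.filter p).card ∧ τ ⊤ g = ∑ k, if p k then 1 else -1 := by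
  classical
  have h1 : finrank K (Ep g) = (Finset.univ.filter p).card := by
    rw [Ep, fr_diag (d := fun k => if p k then 0 else -2) fun y k => by
      rw [LinearMap.sub_apply, Pi.sub_apply, h]; split_ifs <;> simp; ring]
    congr 1; ext k; simp [h2]
  have h3 : finrank K (Em g) = (Finset.univ.filter fun k => ¬ p k).card := by
    rw [Em, fr_diag (d := fun k => if p k then 2 else 0) fun y k => by
      rw [LinearMap.add_apply, Pi.add_apply, h]; split_ifs <;> simp; ring]
    congr 1; ext k; simp [h2]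
  refine ⟨h1, ?_⟩
  rw [τ, top_inf_eq, top_inf_eq, h1, h3, Finset.sum_ite]; simp [sub_eq_add_neg]

end

end Cfsg.Agent.H9.E8
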