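import Cfsg.Agent.H9.E8.R2
import Cfsg.Agent.H9.E8.R3

set_option autoImplicit false
set_option linter.unusedSectionVars false
set_option linter.deprecated false
set_option linter.unusedSimpArgs false

/-! The trace argument: one step of toralisation. -/

namespace Cfsg.Agent.H9.E8

open Cfsg.Agent.H4.Sl Cfsg.Agent.LD.E8 Cfsg.Agent.LD.E8.SR Module
open Cfsg.Agent.H4.Sl.RS (L hh Γ lin_ext finite_R co_e_self co_e_ne co_hh b_σ b_σ' σ_apply σ_self σ_σ σ_bij R_ρ
  sum_R lin_eq_of_roots mkL_e mkL_hh e_ρ)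

variable {ι Φ : Type} [Fintype ι] [DecidableEq ι] [Fintype Φ] [DecidableEq Φ] (S : SR ι Φ)
variable {K : Type*} [Field K]

def dL (c : K) (j : (ι → ℤ) → K) : Module.End K (L ι Φ K) where
  toFun y := fun k => match k with
    | Sum.inl i => c * y (Sum.inl i)
    | Sum.inr a => j (S.ρ a) * y (Sum.inr a)
  map_add' y z := by funext k; cases k <;> simp [mul_add]
  map_smul' c y := by funext k; cases k <;> simp [mul_left_comm]

variable {S}

theorem dL_l (c : K) (j : (ι → ℤ) → K) (y : L ι Φ K) (i : ι) : dL S c j y (Sum.inl i) = c * y (Sum.inl i) := rfl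
theorem dL_r (c : K) (j : (ι → ℤ) → K) (y : L ι Φ K) (a : Φ) :
    dL S c j y (Sum.inr a) = j (S.ρ a) * y (Sum.inr a) := rfl

theorem dL_hh (c : K) (j : (ι → ℤ) → K) (v : ι → ℤ) : dL S c j (hh K v) = c • hh K v := by
  funext k; cases k <;> simp [dL_l, dL_r, hh]

theorem dL_e (c : K) (j : (ι → ℤ) → K) (a : ι → ℤ) : dL S c j (S.e K a) = j a • S.e K a := by
  funext k
  cases k with
  | inl i => simp [dL_l, RS.e]
  | inr s =>
    simp only [dL_r, RS.e, Pi.smul_apply, smul_eq_mul]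
    split_ifs with h
    · rw [h]
    · simp

theorem tm_dL (μ : ι → ℤ) : (tm S K μ : Module.End K (L ι Φ K)) = dL S 1 fun a => sg K (S.b μ a) :=
  lin_ext (S := S.toRS) (fun a ha => by rw [(mon_tm μ).he a ha, dL_e]; rfl)
    (fun v => by rw [(mon_tm μ).hh, dL_hh, one_smul]; rfl)

noncomputable def tc (g : Γ ι Φ K) : ℤ := τ ⊤ (g : Module.End K (L ι Φ K))

theorem tc_conj (c g : Γ ι Φ K) : tc (c⁻¹ * g * c) = tc g := τ_conj c g

theorem tc_tm (h2 : (2 : K) ≠ 0) (μ : ι → ℤ) :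
    tc (tm S K μ) = Fintype.card ι + ∑ a, if 2 ∣ S.b μ (S.ρ a) then 1 else -1 := by
  have := (τ_diag h2 (g := (tm S K μ : Module.End K (L ι Φ K)))
    (fun k => Sum.elim (fun _ => true) (fun a => decide (2 ∣ S.b μ (S.ρ a))) k = true) (fun y k => by
      rw [tm_dL]
      rcases k with i | a
      · simp [dL_l]
      · by_cases h : 2 ∣ S.b μ (S.ρ a)
        · simp [dL_r, sg_even h, h]
        · simp only [dL_r, sg_odd h, Sum.elim_inr, h]; simp)).2
  rw [tc, this, Fintype.sum_sum_type]; simp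

theorem root_mod3 [CharP K 3] {a a' : ι → ℤ} (ha : S.R a) (ha' : S.R a') (h : hh (Φ := Φ) K a = hh K a') :
    a = a' := by
  have h1 : ∀ i, ∃ c, a i - a' i = 3 * c := fun i => by
    have := congrFun h (Sum.inl i)
    simp only [hh, AddMonoidHom.coe_mk, ZeroHom.coe_mk] at this
    exact (CharP.intCast_eq_zero_iff K 3 _).mp (by push_cast; rw [this, sub_self])
  choose c hc using h1
  have h2 : a - a' = (3 : ℤ) • c := funext fun i => hc i
  have h3 : S.b (a - a') (a - a') = 9 * S.b c c := by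
    rw [h2]; simp only [map_smul, LinearMap.smul_apply, smul_eq_mul]; ring
  have h4 := ha.ge ha'
  simp only [map_sub, LinearMap.sub_apply, ha.nrm, ha'.nrm, S.symm a' a] at h3
  have h5 : c = 0 := RS.eq_zero_of (S := S.toRS) (by omega)
  rw [h5, smul_zero, sub_eq_zero] at h2
  exact h2

theorem trace_lemma [CharP K 3] {f : (ι → ℤ) →+ ℤ} (hf : S.Gen f) {n : Γ ι Φ K} {w : (ι → ℤ) →ₗ[ℤ] (ι → ℤ)}
    {χ : (ι → ℤ) → K} (hw : S.Mon n w χ) (h2 : n * n = 1) {Ψ : Set (ι → ℤ)} {X : Submodule K (L ι Φ K)}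
    (hX : ∀ y, y ∈ X ↔ ∀ a, S.ρ a ∉ Ψ → y (Sum.inr a) = 0) (hfix : ∀ r, S.R r → r ∈ Ψ → w r ≠ r)
    {r : ι → ℤ} (hr : S.R r) (hr' : w r ≠ -r) :
    -(Fintype.card ι : ℤ) < τ X (n : Module.End K (L ι Φ K)) ∧ τ X (n : Module.End K (L ι Φ K)) ≤ Fintype.card ι := by
  have hww : ∀ a, S.R a → w (w a) = a := fun a ha => (mon_χ (hw.mul hw) (h2 ▸ Mon.one) ha).1
  have hd : ∀ (c : K) j, ∀ y ∈ X, dL S c j y ∈ X := fun c j y hy =>
    (hX _).mpr fun a ha => by rw [dL_r, (hX _).mp hy a ha, mul_zero]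
  let P : Module.End K (L ι Φ K) := dL S 1 fun _ => -1
  have hP : P * P = 1 := LinearMap.ext fun y => funext fun k => by cases k <;> simp [P, dL_l, dL_r]
  have hnP : (n : Module.End K (L ι Φ K)) * P = P * n := lin_ext (S := S.toRS)
    (fun a ha => by simp [P, dL_e, hw.he a ha]) (fun v => by simp [P, dL_hh, hw.hh])
  have h3 : finrank K (Ep P) = Fintype.card ι := by
    rw [(τ_diag (two_ne K) (g := P) (fun k => k.isLeft = true) (fun y k => by cases k <;> simp [P, dL_l, dL_r])).1]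
    rw [← Fintype.card_subtype]; exact Fintype.card_congr (Equiv.sumIsLeft)
  have h4 : τ (X ⊓ Em P) (n : Module.End K (L ι Φ K)) = 0 := by
    let J : Module.End K (L ι Φ K) := dL S 1 fun a => if f a < f (w a) then 1 else -1
    have hJ : J * J = 1 := LinearMap.ext fun y => funext fun k => by
      rcases k with i | a
      · simp [J, dL_l]
      · simp only [J, Module.End.mul_apply, dL_r, Module.End.one_apply]; split_ifs <;> simp
    refine τ_J (J := J) (Function.LeftInverse.injective (g := J) fun y => by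
      rw [← Module.End.mul_apply, hJ]; rfl) (fun y hy => ⟨hd _ _ y hy.1, mem_Em.mpr ?_⟩) fun y hy => ?_
    · have := mem_Em.mp hy.2
      funext k
      have h5 := congrFun this k
      rcases k with i | a
      · simpa [P, J, dL_l] using h5
      · simp only [P, J, dL_r, Pi.neg_apply, neg_one_mul]
    · have h5 : y ∈ S.V K Ψ := by
        rw [pi_eq_sum_univ' y]
        refine Submodule.sum_mem _ ?_
        rintro (i | a) _
        · have := congrFun (mem_Em.mp hy.2) (Sum.inl i)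
          simp only [P, dL_l, one_mul, Pi.neg_apply] at this
          have h6 : (2 : K) * y (Sum.inl i) = 0 := by linear_combination this
          rw [(mul_eq_zero.mp h6).resolve_left (two_ne K), zero_smul]; exact zero_mem _
        · by_cases h6 : S.ρ a ∈ Ψ
          · rw [← e_ρ (S := S.toRS)]; exact Submodule.smul_mem _ _ (e_mem h6 (R_ρ a))
          · rw [(hX _).mp hy.1 a h6, zero_smul]; exact zero_mem _
      have h6 : S.V K Ψ ≤ LinearMap.ker ((n : Module.End K (L ι Φ K)) * J + J * (n : Module.End K (L ι Φ K))) := V_le fun a h6 ha => by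
        have h7 : f (w a) ≠ f a := fun h => hfix a ha h6 (hf _ _ (hw.root a ha) ha h)
        simp only [LinearMap.mem_ker, LinearMap.add_apply, Module.End.mul_apply, J, dL_e, map_smul, hw.he a ha,
          hww a ha]
        split_ifs with h8 h9 h9
        · omega
        · simp
        · simp
        · omega
      exact eq_neg_of_add_eq_zero_left (h6 h5)
  have h5 := τ_bd (n : Module.End K (L ι Φ K)) (X ⊓ Ep P)
  have h6 : X ⊓ Ep P = Ep P := inf_eq_right.mpr fun y hy => (hX _).mpr fun a _ => by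
    have := congrFun (mem_Ep.mp hy) (Sum.inr a)
    simp only [P, dL_r] at this
    have h6 : (2 : K) * y (Sum.inr a) = 0 := by linear_combination -this
    exact (mul_eq_zero.mp h6).resolve_left (two_ne K)
  rw [τ_split (two_ne K) hP hnP (hd _ _), h4, add_zero]
  rw [h6, h3] at h5
  rw [h6]
  refine ⟨h5.2.resolve_right fun h7 => hr' ?_, h5.1⟩
  have h8 := mem_Em.mp (h7 (show hh K r ∈ Ep P from mem_Ep.mpr (by simp [P, dL_hh])))
  rw [hw.hh, ← map_neg] at h8
  exact root_mod3 (hw.root r hr) hr.ng h8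

variable (S K) in
noncomputable def XL : List (ι → ℤ) → Submodule K (L ι Φ K)
  | [] => ⊤
  | μ :: l => XL l ⊓ Ep (tm S K μ : Module.End K (L ι Φ K))

variable (S) in
def AllC : List (ι → ℤ) → Γ ι Φ K → ℤ → Prop
  | [], n, c => tc n = c
  | μ :: l, n, c => AllC l n c ∧ AllC l (n * tm S K μ) c

variable (S) in
def EvL (l : List (ι → ℤ)) : AddSubgroup (ι → ℤ) := Ev S (Subtype.val : {x // x ∈ l} → ι → ℤ)

theorem mem_EvL {l : List (ι → ℤ)} {v : ι → ℤ} : v ∈ EvL S l ↔ ∀ μ ∈ l, 2 ∣ S.b μ v := by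
  rw [EvL, mem_Ev]; simp

theorem mem_XL (h2 : (2 : K) ≠ 0) (l : List (ι → ℤ)) (y : L ι Φ K) :
    y ∈ XL S K l ↔ ∀ a, S.ρ a ∉ EvL S l → y (Sum.inr a) = 0 := by
  induction l with
  | nil => simp [XL, mem_EvL]
  | cons μ l ih =>
    simp only [XL, Submodule.mem_inf, ih, mem_Ep, tm_dL, mem_EvL, List.forall_mem_cons, not_and_or]
    constructor
    · rintro ⟨h3, h4⟩ a (h5 | h5)
      · have := congrFun h4 (Sum.inr a)
        rw [dL_r, sg_odd h5] at this
        have h6 : (2 : K) * y (Sum.inr a) = 0 := by linear_combination -this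
        exact (mul_eq_zero.mp h6).resolve_left h2
      · exact h3 a h5
    · intro h
      refine ⟨fun a h3 => h a (Or.inr h3), funext ?_⟩
      rintro (i | a)
      · rw [dL_l, one_mul]
      · rw [dL_r]
        by_cases h4 : 2 ∣ S.b μ (S.ρ a)
        · rw [sg_even h4, one_mul]
        · rw [h a (Or.inl h4), mul_zero]

theorem tm_comm (μ μ' : ι → ℤ) : tm S K μ * tm S K μ' = tm S K μ' * tm S K μ := by
  rw [← tm_add, ← tm_add, add_comm]

theorem τ_XL (h2 : (2 : K) ≠ 0) {c : ℤ} (l : List (ι → ℤ)) : ∀ n : Γ ι Φ K,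
    (∀ μ ∈ l, n * tm S K μ = tm S K μ * n) → AllC S l n c → τ (XL S K l) (n : Module.End K (L ι Φ K)) = c := by
  induction l with
  | nil => intro n _ h; exact h
  | cons μ l ih =>
    intro n h1 h3
    have h4 := ih n (fun ν hν => h1 ν (List.mem_cons_of_mem _ hν)) h3.1
    have h5 := ih _ (fun ν hν => by
      rw [mul_assoc, tm_comm, ← mul_assoc, h1 ν (List.mem_cons_of_mem _ hν), mul_assoc]) h3.2
    refine τ_avg h2 (tmL_sq S K μ) (congrArg Units.val (h1 μ (List.mem_cons_self ..))) (fun y hy => ?_) h4 h5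
    rw [mem_XL h2] at hy ⊢
    intro a ha
    have := tm_dL (S := S) (K := K) μ
    rw [show tmL S K μ = _ from this, dL_r, hy a ha, mul_zero]

theorem AllC.conj {c : ℤ} {g : Γ ι Φ K} (l : List (ι → ℤ)) (hg : ∀ μ ∈ l, tm S K μ * g = g * tm S K μ) :
    ∀ n : Γ ι Φ K, AllC S l n c → AllC S l (g⁻¹ * n * g) c := by
  induction l with
  | nil => intro n h; exact (tc_conj g n).trans h
  | cons μ l ih =>
    intro n h
    have h1 := ih fun ν hν => hg ν (List.mem_cons_of_mem _ hν)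
    refine ⟨h1 n h.1, ?_⟩
    have := h1 _ h.2
    rwa [mul_assoc, mul_assoc, hg μ (List.mem_cons_self ..), ← mul_assoc, ← mul_assoc] at this

theorem mon_eq_tm (hb : ∀ i, S.R (Pi.single i 1)) (hu : ∀ s : ι → ℤ, ∃ μ, ∀ i, S.b μ (Pi.single i 1) = s i)
    {n : Γ ι Φ K} {χ : (ι → ℤ) → K} (h : S.Mon n LinearMap.id χ) (h2 : n * n = 1) : ∃ μ, n = tm S K μ := by
  have h1 : ∀ i, ∃ s, χ (Pi.single i 1) = sg K s := fun i => by
    have : χ (Pi.single i 1) * χ (Pi.single i 1) = 1 := (mon_χ (h.mul h) (h2 ▸ Mon.one) (hb i)).2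
    rcases mul_self_eq_one_iff.mp this with h3 | h3
    · exact ⟨0, h3.trans sg_zero.symm⟩
    · exact ⟨1, h3.trans sg_one.symm⟩
  choose s hs using h1
  obtain ⟨μ, hμ⟩ := hu s
  let F : (ι → ℤ) →+ Additive Kˣ := AddMonoidHom.mk' (fun v => Additive.ofMul (Units.mk0 (χ v) (h.χne v)))
    fun v v' => by rw [← ofMul_mul]; congr 1; ext; simp [h.χa_id]
  let F' : (ι → ℤ) →+ Additive Kˣ := AddMonoidHom.mk' (fun v => Additive.ofMul (Units.mk0 (sg K (S.b μ v)) (sg_ne _)))
    fun v v' => by rw [← ofMul_mul]; congr 1; ext; simp [sg_add]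
  have h3 : F.toIntLinearMap = F'.toIntLinearMap := (Pi.basisFun ℤ ι).ext fun i => by
    simp [F, F', hs, hμ]
  refine ⟨μ, h.eq (mon_tm μ) (fun _ => rfl) fun a _ => ?_⟩
  have := LinearMap.congr_fun h3 a
  simpa [F, F'] using this

/-- `w` is an isometry permuting the roots -/
structure Iso (S : SR ι Φ) (w : (ι → ℤ) →ₗ[ℤ] (ι → ℤ)) : Prop where
  iso : ∀ v v', S.b (w v) (w v') = S.b v v'
  root : ∀ v, S.R v → S.R (w v)
  inj : Function.Injective w

theorem step [CharP K 3] (hsq : ∀ c : K, ∃ d, d * d = c) (hb : ∀ i, S.R (Pi.single i 1))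
    {f : (ι → ℤ) →+ ℤ} (hf : S.Gen f) {l : List (ι → ℤ)} {t : Γ ι Φ K} (ht : t ∈ S.U K Set.univ)
    (h2 : t * t = 1) (h : ∀ μ ∈ l, t * tm S K μ = tm S K μ * t) :
    ∃ c ∈ S.U K (EvL S l), ∃ w χ, S.Mon (c⁻¹ * t * c) w χ ∧ (∀ μ ∈ l, ∀ a, S.R a → 2 ∣ S.b (w μ) a - S.b μ a) ∧
      (∀ v, S.R v → v ∈ EvL S l → 0 < f v → w v ∈ EvL S l ∧ 0 < f (w v)) ∧
      ∀ c r, AllC S l t c → S.R r → r ∈ EvL S l → (c ≤ -(Fintype.card ι : ℤ) ∨ Fintype.card ι < c) →
        ∃ r, S.R r ∧ r ∈ EvL S l ∧ w r = r := by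
  obtain ⟨c, hc, w, χ, hw, h3⟩ := rel_mon hsq hb hf (μ := (Subtype.val : {x // x ∈ l} → ι → ℤ)) ht h2
    fun i => h i.1 i.2
  have h4 : ∀ μ ∈ l, tm S K μ * c = c * tm S K μ := fun μ hμ => Ev_comm hc ⟨μ, hμ⟩
  have h5 : ∀ μ ∈ l, c⁻¹ * t * c * tm S K μ = tm S K μ * (c⁻¹ * t * c) := fun μ hμ => by
    have h6 : tm S K μ * c⁻¹ = c⁻¹ * tm S K μ := by
      rw [mul_inv_eq_iff_eq_mul, mul_assoc, h4 μ hμ, inv_mul_cancel_left]
    rw [mul_assoc, ← h4 μ hμ, ← mul_assoc, mul_assoc c⁻¹, h μ hμ, ← mul_assoc, ← h6]; group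
  refine ⟨c, hc, w, χ, hw, fun μ hμ a ha => mon_par (two_ne K) hw (h5 μ hμ) ha, h3, fun k r h6 hr h7 h8 => ?_⟩
  by_contra h9
  push Not at h9
  have h10 := τ_XL (two_ne K) l _ h5 (AllC.conj l h4 t h6)
  have h11 := trace_lemma hf hw (by
    have : c⁻¹ * t * c * (c⁻¹ * t * c) = c⁻¹ * (t * t) * c := by group
    rw [this, h2]; group) (mem_XL (two_ne K) l) h9 hr (fun h11 => by
      rcases lt_or_gt_of_ne (hf.ne hr) with h12 | h12
      · have := (h3 _ hr.ng (neg_mem h7) (by rw [map_neg]; omega)).2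
        rw [map_neg, h11, neg_neg] at this; omega
      · have := (h3 _ hr h7 h12).2
        rw [h11, map_neg] at this; omega)
  omega

end Cfsg.Agent.H9.E8
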