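import Cfsg.Agent.H9.E8.R4
import Cfsg.Agent.H9.E8.D2

set_option autoImplicit false
set_option linter.unusedSectionVars false
set_option linter.deprecated false
set_option linter.unusedSimpArgs false
set_option maxRecDepth 100000

/-! Soundness of the finite checks for the lattice of type `E₈`. -/

namespace Cfsg.Agent.H9.E8

open Cfsg.Agent.H4.Sl Cfsg.Agent.LD.E8 Cfsg.Agent.LD.E8.SR
open Cfsg.Agent.H4.Sl.RS (L hh Γ σ_apply R_ρ sum_R)

theorem bb_eq (v w : V8) : S8.b v w = bb v w := (S8_b v w).trans (b8_apply v w)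

theorem rt_eq (r : Fin 240) : S8.ρ r = rt r := funext fun i => S8_ρ r i

theorem rt_R {r : ℕ} (h : r < 240) : S8.R (rt r) := ⟨⟨r, h⟩, rt_eq _⟩

theorem Cd_iff {d : ℤ} {v w : V8} : Cd d v w ↔ ∃ x : V8, v = w + d • x :=
  ⟨fun h => by
    choose x hx using h
    exact ⟨x, funext fun i => by simp [← hx i]⟩,
   fun ⟨x, hx⟩ i => ⟨x i, by simp [hx]⟩⟩

theorem Cd.rfl' (d : ℤ) (v : V8) : Cd d v v := fun i => by simp
theorem Cd.symm {d : ℤ} {v w : V8} (h : Cd d v w) : Cd d w v := fun i => dvd_sub_comm.mp (h i)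
theorem Cd.trans {d : ℤ} {u v w : V8} (h : Cd d u v) (h' : Cd d v w) : Cd d u w := fun i => by
  simpa using dvd_add (h i) (h' i)
theorem Cd.add {d : ℤ} {u v u' v' : V8} (h : Cd d u v) (h' : Cd d u' v') : Cd d (u + u') (v + v') := fun i => by
  have := dvd_add (h i) (h' i)
  rwa [show (u + u') i - (v + v') i = u i - v i + (u' i - v' i) by simp only [Pi.add_apply]; ring]
theorem Cd.map {d : ℤ} {u v : V8} (h : Cd d u v) (w : V8 →ₗ[ℤ] V8) : Cd d (w u) (w v) := by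
  obtain ⟨x, rfl⟩ := Cd_iff.mp h
  exact Cd_iff.mpr ⟨w x, by rw [map_add, map_smul]⟩
theorem Cd.b {d : ℤ} {u v : V8} (h : Cd d u v) (z : V8) : d ∣ S8.b u z - S8.b v z := by
  obtain ⟨x, rfl⟩ := Cd_iff.mp h
  exact ⟨S8.b x z, by simp only [map_add, map_smul, LinearMap.add_apply, LinearMap.smul_apply, smul_eq_mul]; ring⟩
theorem Cd.eq {u v : V8} (h : Cd 0 u v) : u = v := funext fun i => by simpa [sub_eq_zero] using h i

theorem exists_v8 (v : V8) : ∃ m : Fin 256, Cd 2 v (v8 m) := by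
  have key : ∀ a b c d e f g h : Fin 2, ∃ m : Fin 256, m.val = a + 2 * b + 4 * c + 8 * d + 16 * e + 32 * f + 64 * g +
      128 * h ∧ ∀ i, v8 m i = ![(a : ℕ), b, c, d, e, f, g, h] i := fun a b c d e f g h =>
    ⟨⟨a + 2 * b + 4 * c + 8 * d + 16 * e + 32 * f + 64 * g + 128 * h, by omega⟩, rfl, by
      revert a b c d e f g h; decide +kernel⟩
  have h1 : ∀ x : ℤ, ∃ a : Fin 2, 2 ∣ x - (a : ℕ) := fun x => ⟨⟨(x % 2).toNat, by omega⟩, by simp only; omega⟩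
  choose a ha using h1
  obtain ⟨m, -, hm⟩ := key (a (v 0)) (a (v 1)) (a (v 2)) (a (v 3)) (a (v 4)) (a (v 5)) (a (v 6)) (a (v 7))
  refine ⟨m, fun i => ?_⟩
  rw [hm]
  fin_cases i <;> exact ha _

theorem uni {u v : V8} (h : ∀ a, S8.R a → 2 ∣ S8.b u a - S8.b v a) : Cd 2 u v := by
  have h1 := fun i => h _ (S8_hb i)
  have g0 := h1 0; have g1 := h1 1; have g2 := h1 2; have g3 := h1 3
  have g4 := h1 4; have g5 := h1 5; have g6 := h1 6; have g7 := h1 7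
  simp [bb_eq, bb] at g0 g1 g2 g3 g4 g5 g6 g7
  intro i
  fin_cases i <;> simp <;> omega

theorem uni' (s : V8) : ∃ μ, ∀ i, S8.b μ (Pi.single i 1) = s i := by
  refine ⟨![4 * s 0 + 5 * s 1 + 7 * s 2 + 10 * s 3 + 8 * s 4 + 6 * s 5 + 4 * s 6 + 2 * s 7,
    5 * s 0 + 8 * s 1 + 10 * s 2 + 15 * s 3 + 12 * s 4 + 9 * s 5 + 6 * s 6 + 3 * s 7,
    7 * s 0 + 10 * s 1 + 14 * s 2 + 20 * s 3 + 16 * s 4 + 12 * s 5 + 8 * s 6 + 4 * s 7,
    10 * s 0 + 15 * s 1 + 20 * s 2 + 30 * s 3 + 24 * s 4 + 18 * s 5 + 12 * s 6 + 6 * s 7,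
    8 * s 0 + 12 * s 1 + 16 * s 2 + 24 * s 3 + 20 * s 4 + 15 * s 5 + 10 * s 6 + 5 * s 7,
    6 * s 0 + 9 * s 1 + 12 * s 2 + 18 * s 3 + 15 * s 4 + 12 * s 5 + 8 * s 6 + 4 * s 7,
    4 * s 0 + 6 * s 1 + 8 * s 2 + 12 * s 3 + 10 * s 4 + 8 * s 5 + 6 * s 6 + 3 * s 7,
    2 * s 0 + 3 * s 1 + 4 * s 2 + 6 * s 3 + 5 * s 4 + 4 * s 5 + 3 * s 6 + 2 * s 7], fun i => ?_⟩
  rw [bb_eq]
  fin_cases i <;> simp [bb] <;> ring

theorem ty_congr {u v : V8} (h : Cd 2 u v) : ty u = ty v := by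
  have h1 : Cd 2 u 0 ↔ Cd 2 v 0 := ⟨h.symm.trans, h.trans⟩
  have h2 : bb u u % 4 = bb v v % 4 := by
    obtain ⟨x, rfl⟩ := Cd_iff.mp h
    simp only [← bb_eq, map_add, map_smul, LinearMap.add_apply, LinearMap.smul_apply, smul_eq_mul, S8.symm x v]
    omega
  simp only [ty, h1, h2]

variable {K : Type*} [Field K]

theorem tm_Cd {u v : V8} (h : Cd 2 u v) : tm S8 K u = tm S8 K v := tm_congr fun a _ => h.b a

theorem tc_ty (h2 : (2 : K) ≠ 0) (v : V8) : tc (tm S8 K v) = ty v := by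
  obtain ⟨m, hm⟩ := exists_v8 v
  rw [tm_Cd hm, ty_congr hm, tc_tm h2, ← f1, sumP_eq]
  simp only [rt_eq, bb_eq, Fintype.card_fin]; rfl

theorem AllC_T (h2 : (2 : K) ≠ 0) {c : ℤ} (l : List V8) : ∀ v, AllC S8 l (tm S8 K v) c → AllT l v c := by
  induction l with
  | nil => intro v h; exact (tc_ty h2 v).symm.trans h
  | cons μ l ih => intro v h; exact ⟨ih v h.1, ih _ (by rw [tm_add]; exact h.2)⟩

theorem act_conj (l : List ℕ) : ∃ c ∈ S8.U K Set.univ, ∀ v, c⁻¹ * tm S8 K v * c = tm S8 K (act l v) := by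
  induction l with
  | nil => exact ⟨1, one_mem _, fun v => by simp [act]⟩
  | cons r l ih =>
    obtain ⟨c, hc, h⟩ := ih
    by_cases hr : r < 240
    · refine ⟨c * (S8.nn (rt r) 1)⁻¹, mul_mem hc (inv_mem (NK_le (isNK.nn _ (rt_R hr) 1 one_ne_zero))), fun v => ?_⟩
      have h1 := mon_conj_tm (mon_nn (K := K) (rt_R hr) one_ne_zero) (act l v)
      have h2 : S8.σ (rt r) (act l v) = act (r :: l) v := by
        rw [act, if_pos hr, σ_apply, bb_eq]; rfl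
      rw [← h2, ← mul_inv_eq_iff_eq_mul.mpr h1, ← h]; group
    · exact ⟨c, hc, fun v => by rw [act, if_neg hr, h]⟩

theorem mem_EvB {l : List V8} {v : V8} : v ∈ EvL S8 l ↔ EvB l v := by
  simp only [mem_EvL, bb_eq, EvB]

theorem exists_f : ∃ f, S8.Gen f ∧ ∀ r : Fin 240, 0 < f (rt r) ↔ 120 ≤ (r : ℕ) := by
  obtain ⟨f, hf, -, h1, h2⟩ := S8.exists_gen ht8
  refine ⟨f, hf, fun r => ?_⟩
  have h3 := all_range e8_f6 r.2
  simp only [Bool.and_eq_true] at h3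
  have h4 := h3.1
  have h5 := h1 _ ⟨r, rfl⟩
  have h6 := h2 _ ⟨r, rfl⟩
  rw [ht8_ρ, rt_eq] at h5 h6
  split_ifs at h4 with h7
  · have : htP r < 0 := by simpa using h4
    exact ⟨fun h => by have := h6 h; omega, fun h => by omega⟩
  · exact ⟨fun _ => by omega, fun _ => h5 (by simpa using h4)⟩

theorem comb_eq (m : V8) (β : Fin 8 → V8) : comb m β = ∑ i, m i • β i := by
  funext k; simp [comb, Fin.sum_univ_eight]

theorem InE.fix {w : V8 →ₗ[ℤ] V8} {l : List V8} (h : ∀ μ ∈ l, Cd 2 (w μ) μ) : ∀ {v}, InE l v → Cd 2 (w v) v := by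
  induction l with
  | nil => intro v hv; exact ((Cd.map hv w).trans (by rw [map_zero]; exact Cd.rfl' _ _)).trans (Cd.symm hv)
  | cons μ l ih =>
    have h1 := @ih fun ν hν => h ν (List.mem_cons_of_mem _ hν)
    rintro v (hv | hv)
    · exact h1 hv
    · have := (h1 hv).add (h μ (List.mem_cons_self ..))
      rwa [← map_add, sub_add_cancel] at this

theorem star {l : List V8} {k I G : ℕ} {c : V8} {d : ℤ} {M : Matrix (Fin 8) (Fin 8) ℤ} {m2 m3 : List V8}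
    (h : Frame l k I c G d M m2 m3) {f : V8 →+ ℤ} (hf : S8.Gen f) (hp : ∀ r : Fin 240, 0 < f (rt r) ↔ 120 ≤ (r : ℕ))
    {w : V8 →ₗ[ℤ] V8} (hw : Iso S8 w) (h1 : ∀ μ ∈ l, ∀ a, S8.R a → 2 ∣ S8.b (w μ) a - S8.b μ a)
    (h2 : ∀ v, S8.R v → v ∈ EvL S8 l → 0 < f v → 0 < f (w v)) (h3 : ∀ j : Fin 8, k ≤ j → w (fr I j) = fr I j)
    (h4 : ∃ r, S8.R r ∧ r ∈ EvL S8 l ∧ w r = r) : w = LinearMap.id := by
  classical
  have hΨ : ∀ v, S8.R v → (w v ∈ EvL S8 l ↔ v ∈ EvL S8 l) := fun v hv => by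
    simp only [mem_EvL]
    refine forall₂_congr fun μ hμ => ?_
    have := h1 μ hμ _ (hw.root v hv)
    rw [hw.iso] at this; omega
  have hF : ∀ μ ∈ l, Cd 2 (w μ) μ := fun μ hμ => uni (h1 μ hμ)
  have e : c = ∑ a, if S8.ρ a ∈ EvL S8 l ∧ 0 < f (S8.ρ a) then S8.ρ a else 0 := funext fun i => by
    rw [h.hc, sumP_eq, Finset.sum_apply]
    refine Finset.sum_congr rfl fun a _ => ?_
    simp only [rt_eq, mem_EvB, hp, and_comm]
    split_ifs <;> rfl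
  have hc : w c = c := funext fun i => by
    have h5 := sum_R (S := S8.toRS) (fun v => if v ∈ EvL S8 l ∧ 0 < f v then v i else 0) hw.root hw.inj
    have h6 : c i = ∑ a, if S8.ρ a ∈ EvL S8 l ∧ 0 < f (S8.ρ a) then S8.ρ a i else 0 := by
      rw [e, Finset.sum_apply]
      exact Finset.sum_congr rfl fun a _ => by split_ifs <;> rfl
    rw [h6, ← h5]
    nth_rewrite 1 [e]
    rw [map_sum, Finset.sum_apply]
    refine Finset.sum_congr rfl fun a _ => ?_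
    by_cases h7 : S8.ρ a ∈ EvL S8 l ∧ 0 < f (S8.ρ a)
    · rw [if_pos h7, if_pos ⟨(hΨ _ (R_ρ a)).mpr h7.1, h2 _ (R_ρ a) h7.1 h7.2⟩]
    · rw [if_neg h7, if_neg, map_zero]; rfl
      rintro ⟨h8, h9⟩
      have h10 := (hΨ _ (R_ρ a)).mp h8
      have h11 := hf.ne (R_ρ a)
      have h12 := h2 _ (R_ρ a).ng (neg_mem h10) (by rw [map_neg]; by_contra h; exact h7 ⟨h10, by omega⟩)
      rw [map_neg, map_neg] at h12; omega
  have hπ : ∀ j, ∃ j', w (fr I j) = fr I j' ∧ (k ≤ j → j' = j) := fun j => by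
    by_cases hj : k ≤ j
    · exact ⟨j, h3 j hj, fun _ => rfl⟩
    obtain ⟨h5, h6⟩ := h.hb j
    obtain ⟨h7, h8⟩ := h6 (by omega)
    obtain ⟨r, hr⟩ := hw.root _ (rt_R h5)
    have h9 := (hΨ _ (rt_R h5)).mpr (mem_EvB.mpr h7)
    rw [← hr, rt_eq, mem_EvB] at h9
    obtain ⟨j', hj'⟩ := h.hs r h9 (by rw [← bb_eq, ← rt_eq, hr, ← hc, hw.iso, bb_eq]; exact h8)
    exact ⟨j', by rw [← hj'.eq, ← rt_eq, hr]; rfl, fun h => absurd h hj⟩
  choose π hπ hπ' using hπ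
  have hcomb : ∀ m, w (comb m (fr I)) = comb m fun i => fr I (π i) := fun m => by
    simp only [comb_eq, map_sum, map_smul, hπ]
  have h5 := h.ht.spec π (fun i j => by
    rcases h.hg i j (π i) (π j) with h5 | h5 | ⟨h5, h6⟩
    · exact h5
    · exact absurd (by rw [← bb_eq, ← bb_eq, ← hπ, ← hπ, hw.iso]) h5
    · exact absurd (by rw [← hπ, ← hπ, ← map_add]; exact h5.fix hF) h6) hπ'
    (fun m hm => by rw [← hcomb]; exact (h.h2 m hm).fix hF)
    (fun m hm => by rw [← hcomb, ← map_zero w]; exact (h.h3 m hm).map w)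
  rcases h5 with h5 | h5
  · apply (Pi.basisFun ℤ (Fin 8)).ext
    intro j
    have h6 : comb (M j) (fr I) = d • Pi.single j 1 := funext fun i => by
      rw [h.hM.2]; simp [Pi.single_apply, eq_comm]
    have h7 := hcomb (M j)
    simp only [h5] at h7
    rw [show (fun i => fr I i) = fr I from rfl, h6, map_smul] at h7
    simpa using smul_right_injective V8 h.hM.1 h7
  · obtain ⟨_, ⟨r, rfl⟩, h6, h7⟩ := h4
    obtain ⟨i, hi⟩ := h5 r (by rwa [← mem_EvB, ← rt_eq])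
    exact absurd (by rw [← bb_eq, ← bb_eq, ← rt_eq, ← hπ, ← hw.iso (S8.ρ r) (fr I i), h7]) hi

end Cfsg.Agent.H9.E8
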