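import Cfsg.Agent.H9.E8.R5
import Cfsg.Agent.H9.E8.Cfg

set_option autoImplicit false
set_option linter.unusedSectionVars false
set_option linter.deprecated false
set_option linter.unusedSimpArgs false
set_option maxRecDepth 100000

/-! Toralisation steps and the final contradiction. -/

namespace Cfsg.Agent.H9.E8

open Cfsg.Agent.H4.Sl Cfsg.Agent.LD.E8 Cfsg.Agent.LD.E8.SR
open Cfsg.Agent.H4.Sl.RS (L hh Γ σ_apply R_ρ sum_R)

section
variable {ι Φ : Type} [Fintype ι] [DecidableEq ι] [Fintype Φ] [DecidableEq Φ] {S : SR ι Φ}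
variable {K : Type*} [Field K]

variable (S) in
def Ort (Ψ : Set (ι → ℤ)) (v : ι → ℤ) : Prop := ∀ s, S.R s → s ∈ Ψ → S.b v s = 0

theorem U_fix {Ψ : Set (ι → ℤ)} {v : ι → ℤ} (hv : Ort S Ψ v) {u : Γ ι Φ K} (hu : u ∈ S.U K Ψ) :
    (u : Module.End K (L ι Φ K)) (hh K v) = hh K v :=
  U_ind (p := fun u => (u : Module.End K (L ι Φ K)) (hh K v) = hh K v) rfl (fun r h1 h2 t g _ ih => by
    rw [Units.val_mul, Module.End.mul_apply, ih, coe_X h2, xh, hv r h2 h1]; simp) hu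

theorem root_mod2 {a a' x : ι → ℤ} (ha : S.R a) (ha' : S.R a') (h : a = a' + (2 : ℤ) • x) : a = a' ∨ a = -a' := by
  have h1 : S.b (a - a') (a - a') = 4 * S.b x x := by
    rw [h, add_sub_cancel_left]; simp only [map_smul, LinearMap.smul_apply, smul_eq_mul]; ring
  have h2 := S.βs x x
  have h3 := ha'.ge ha
  have h4 := ha'.le ha
  simp only [map_sub, LinearMap.sub_apply, ha.nrm, ha'.nrm, S.symm a a'] at h1
  have : S.b a' a = 2 ∨ S.b a' a = -2 := by omega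
  exact this.imp (ha'.eq_of ha) (ha'.eq_neg ha)

theorem act_hh (h2K : (2 : K) ≠ 0) {κ : Type*} {μ μ' : κ → ι → ℤ} {Ψ : Set (ι → ℤ)}
    (hΨ : ∀ r, S.R r → (r ∈ Ψ ↔ ∀ i, 2 ∣ S.b (μ i) r)) (hΨ' : ∀ r, S.R r → (r ∈ Ψ ↔ ∀ i, 2 ∣ S.b (μ' i) r))
    {g : Γ ι Φ K} (hg : g ∈ S.U K Set.univ) (h : ∀ i, g * tm S K (μ' i) = tm S K (μ i) * g) :
    ∃ w, Iso S w ∧ (∀ i a, S.R a → 2 ∣ S.b (w (μ' i)) a - S.b (μ i) a) ∧
      ∀ v, Ort S Ψ v → Ort S Ψ (w v) ∧ (g : Module.End K (L ι Φ K)) (hh K v) = hh K (w v) := by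
  obtain ⟨f, hf, -⟩ := S.exists_gen 0
  obtain ⟨u1, h1, n, hn, u2, h3, e, h4⟩ := rel_bruhat h2K hf hΨ hΨ' hg h
  obtain ⟨w, χ, hw⟩ := isNK.mon n hn
  have h5 : ∀ i a, S.R a → 2 ∣ S.b (w (μ' i)) a - S.b (μ i) a := fun i a ha => mon_par h2K hw (h4 i) ha
  refine ⟨w, ⟨hw.iso, hw.root, hw.bij.1⟩, h5, fun v hv => ?_⟩
  have h6 : Ort S Ψ (w v) := fun s hs h6 => by
    obtain ⟨s', h7, rfl⟩ := hw.root_surj hs
    rw [hw.iso]
    refine hv s' h7 ((hΨ' s' h7).mpr fun i => ?_)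
    have h8 := h5 i _ hs
    have h9 := (hΨ _ hs).mp h6 i
    rw [hw.iso] at h8; omega
  refine ⟨h6, ?_⟩
  rw [e, Units.val_mul, Units.val_mul, Module.End.mul_apply, Module.End.mul_apply,
    U_fix hv (U_mono (fun r h _ => h.1) h3), hw.hh, U_fix h6 (U_mono (fun r h _ => h.1) h1)]

end

variable {K : Type*} [Field K] [CharP K 3]

theorem tc_inv (hsq : ∀ c : K, ∃ d, d * d = c) {t : Γ (Fin 8) (Fin 240) K} (ht : t ∈ S8.U K Set.univ)
    (h2 : t * t = 1) (h1 : t ≠ 1) : tc t = 24 ∨ tc t = -8 := by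
  obtain ⟨f, hf, hW⟩ := exists_f8
  obtain ⟨c, -, w, χ, hw, -, h3, -⟩ := step hsq S8_hb hf (l := []) ht h2 (by simp)
  have h4 := hW w hw.iso hw.root hw.bij.1 fun v hv h4 => (h3 v hv (by simp [mem_EvL]) h4).2
  subst h4
  obtain ⟨μ, hμ⟩ := mon_eq_tm S8_hb uni' hw (by
    have : c⁻¹ * t * c * (c⁻¹ * t * c) = c⁻¹ * (t * t) * c := by group
    rw [this, h2]; group)
  rw [← tc_conj c, hμ, tc_ty (two_ne K), ty]
  split_ifs with h5
  · refine absurd ?_ h1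
    rw [tm_Cd h5, tm_zero] at hμ
    rw [show t = c * (c⁻¹ * t * c) * c⁻¹ by group, hμ]; group
  · exact Or.inl rfl
  · exact Or.inr rfl

theorem stepT (hsq : ∀ c : K, ∃ d, d * d = c) {l : List V8} {k I G : ℕ} {c0 : V8} {d : ℤ}
    {M : Matrix (Fin 8) (Fin 8) ℤ} {m2 m3 : List V8} (h : Frame l k I c0 G d M m2 m3) (hk : 0 < k)
    {t : Γ (Fin 8) (Fin 240) K} (ht : t ∈ S8.U K Set.univ) (h2 : t * t = 1)
    (hc : ∀ μ ∈ l, t * tm S8 K μ = tm S8 K μ * t) {c : ℤ} (hA : AllC S8 l t c) (hc' : c = 24 ∨ c = -8)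
    (h3 : ∀ j : Fin 8, k ≤ j → Ort S8 (EvL S8 l) (fr I j) ∧
      (t : Module.End K (L (Fin 8) (Fin 240) K)) (hh K (fr I j)) = hh K (fr I j)) :
    ∃ g ∈ S8.U K Set.univ, (∀ μ ∈ l, g⁻¹ * tm S8 K μ * g = tm S8 K μ) ∧ ∃ m : Fin 256,
      g⁻¹ * t * g = tm S8 K (v8 m) ∧ AllT l (v8 m) c := by
  obtain ⟨f, hf, hp⟩ := exists_f
  obtain ⟨g, hg, w, χ, hw, h4, h5, h6⟩ := step hsq S8_hb hf ht h2 hc
  have h7 := star h hf hp ⟨hw.iso, hw.root, hw.bij.1⟩ h4 (fun v hv h7 h8 => (h5 v hv h7 h8).2) (fun j hj => by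
      have h7 := hw.hh (fr I j)
      rw [Units.val_mul, Units.val_mul, Module.End.mul_apply, Module.End.mul_apply, U_fix (h3 j hj).1 hg,
        (h3 j hj).2, U_fix (h3 j hj).1 (inv_mem hg)] at h7
      exact (root_mod3 (rt_R (h.hb j).1) (hw.root _ (rt_R (h.hb j).1)) h7).symm)
    (h6 c (fr I 0) hA (rt_R (h.hb 0).1) (mem_EvB.mpr ((h.hb 0).2 hk).1) (by rw [Fintype.card_fin]; omega))
  subst h7
  obtain ⟨μ, hμ⟩ := mon_eq_tm S8_hb uni' hw (by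
    have : g⁻¹ * t * g * (g⁻¹ * t * g) = g⁻¹ * (t * t) * g := by group
    rw [this, h2]; group)
  obtain ⟨m, hm⟩ := exists_v8 μ
  rw [tm_Cd hm] at hμ
  have h8 : ∀ μ ∈ l, tm S8 K μ * g = g * tm S8 K μ := fun μ hμ => Ev_comm hg ⟨μ, hμ⟩
  exact ⟨g, U_mono (fun _ _ _ => Set.mem_univ _) hg, fun ν hν => by rw [mul_assoc, h8 ν hν]; group, m, hμ,
    AllC_T (two_ne K) l _ (hμ ▸ AllC.conj l h8 t hA)⟩

theorem stepS (hsq : ∀ c : K, ∃ d, d * d = c) {l : List V8} {I G : ℕ} {c0 : V8} {d : ℤ}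
    {M : Matrix (Fin 8) (Fin 8) ℤ} {m2 m3 : List V8} (h : Frame l 8 I c0 G d M m2 m3)
    {t : Γ (Fin 8) (Fin 240) K} (ht : t ∈ S8.U K Set.univ) (h2 : t * t = 1)
    (hc : ∀ μ ∈ l, t * tm S8 K μ = tm S8 K μ * t) {c : ℤ} (hA : AllC S8 l t c) (hc' : c = 24 ∨ c = -8)
    {W : ℕ} {T : V8} (hS : Std l c W T) :
    ∃ g ∈ S8.U K Set.univ, (∀ μ ∈ l, g⁻¹ * tm S8 K μ * g = tm S8 K μ) ∧ g⁻¹ * t * g = tm S8 K T := by
  obtain ⟨g, hg, h3, m, h4, h5⟩ := stepT hsq h (by norm_num) ht h2 hc hA hc' fun j hj => by omega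
  obtain ⟨h6, h7⟩ := hS m h5
  obtain ⟨g', hg', h8⟩ := act_conj (K := K) (word W m)
  refine ⟨g * g', mul_mem hg hg', fun μ hμ => ?_, ?_⟩
  · rw [show (g * g')⁻¹ * tm S8 K μ * (g * g') = g'⁻¹ * (g⁻¹ * tm S8 K μ * g) * g' by group, h3 μ hμ, h8,
      tm_Cd (h6 μ hμ)]
  · rw [← tm_Cd h7, ← h8, ← h4]; group

theorem norm0 {μ1 μ2 μ3 μ4 : V8} {γ : List ℕ} {i1 i2 : ℕ} {k : ℤ} (h : Fin4 μ1 μ2 μ3 μ4 γ i1 i2 k)
    {W : V8 →ₗ[ℤ] V8} (hW : ∀ v v', S8.b (W v) (W v') = S8.b v v')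
    (hN : ∀ μ ∈ [μ1, μ2, μ3, μ4], Cd 2 (W (W μ) + W μ) μ) (n : ℕ) :
    ∀ x, (S8.b x x).toNat < n → Ort S8 (EvL S8 [μ1, μ2, μ3, μ4]) x → W x = x → x = 0 := by
  induction n with
  | zero => intro _ h; omega
  | succ n ih =>
    intro x h1 h2 h3
    obtain ⟨m, hm⟩ := exists_v8 x
    have h4 := h.hE m (fun μ hμ => by
      have h4 := (hN μ hμ).b x
      have h5 := hm.b μ
      have h6 : ∀ v, S8.b (W v) x = S8.b v x := fun v => by rw [← hW v x, h3]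
      rw [map_add, LinearMap.add_apply, h6, h6] at h4
      rw [← bb_eq, S8.symm]; rw [S8.symm x] at h5; omega) (fun μ hμ => by
      obtain ⟨r, hr, rfl⟩ := List.mem_map.mp hμ
      have h5 := hm.b (rt r)
      rw [h2 _ (rt_R (h.hγ r hr).1) (mem_EvB.mpr (h.hγ r hr).2)] at h5
      rw [← bb_eq, S8.symm]; omega)
    have h5 := ((hm.map (W ∘ₗ W + W)).trans (h4.fix (w := W ∘ₗ W + W) hN)).trans hm.symm
    simp only [LinearMap.add_apply, LinearMap.comp_apply, h3] at h5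
    obtain ⟨y, hy⟩ := Cd_iff.mp (show Cd 2 x 0 from fun i => by simpa using h5 i)
    rw [zero_add] at hy
    subst hy
    by_cases h0 : y = 0
    · simp [h0]
    have h6 := S8.pos y h0
    simp only [map_smul, LinearMap.smul_apply, smul_eq_mul] at h1
    exact absurd (ih y (by omega) (fun s hs h7 => by
      have := h2 s hs h7
      simp only [map_smul, LinearMap.smul_apply, smul_eq_mul] at this; omega)
      (smul_right_injective V8 (two_ne_zero (α := ℤ)) (by simpa only [map_smul] using h3))) h0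

theorem final {μ1 μ2 μ3 μ4 : V8} {γ : List ℕ} {i1 i2 : ℕ} {k : ℤ} (h : Fin4 μ1 μ2 μ3 μ4 γ i1 i2 k)
    {y a : Γ (Fin 8) (Fin 240) K} (hy : y ∈ S8.U K Set.univ) (ha : a ∈ S8.U K Set.univ)
    (cf : Cf (tm S8 K μ1) (tm S8 K μ2) (tm S8 K μ3) (tm S8 K μ4) y a) : False := by
  set Ψ : Set V8 := (EvL S8 [μ1, μ2, μ3, μ4] : Set V8) with hΨ
  have hm : ∀ r, r ∈ Ψ ↔ 2 ∣ S8.b μ1 r ∧ 2 ∣ S8.b μ2 r ∧ 2 ∣ S8.b μ3 r ∧ 2 ∣ S8.b μ4 r := fun r => by
    rw [hΨ, SetLike.mem_coe, mem_EvL]; simp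
  obtain ⟨Y, hY, y1, y2⟩ := act_hh (two_ne K) (Ψ := Ψ) (μ := ![μ2, μ1 + μ2, μ4, μ3 + μ4]) (μ' := ![μ1, μ2, μ3, μ4])
    (fun r _ => by rw [hm]; simp [Fin.forall_fin_succ]; omega) (fun r _ => by rw [hm]; simp [Fin.forall_fin_succ]) hy
    (fun i => by
      fin_cases i
      · exact cf.y1
      · exact cf.y2.trans (by rw [← tm_add]; rfl)
      · exact cf.y3
      · exact cf.y4.trans (by rw [← tm_add]; rfl))
  obtain ⟨A, hA, a1, a2⟩ := act_hh (two_ne K) (Ψ := Ψ) (μ := ![μ1, μ2, μ3 + μ1, μ4 + (μ1 + μ2)])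
    (μ' := ![μ1, μ2, μ3, μ4])
    (fun r _ => by rw [hm]; simp [Fin.forall_fin_succ]; omega) (fun r _ => by rw [hm]; simp [Fin.forall_fin_succ]) ha
    (fun i => by
      fin_cases i
      · exact cf.a1
      · exact cf.a2
      · exact cf.a3.trans (by rw [← tm_add]; rfl)
      · exact cf.a4.trans (by rw [← tm_add, ← tm_add]; rfl))
  have Y1 : Cd 2 (Y μ1) μ2 := uni (y1 0)
  have Y2 : Cd 2 (Y μ2) (μ1 + μ2) := uni (y1 1)
  have Y3 : Cd 2 (Y μ3) μ4 := uni (y1 2)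
  have Y4 : Cd 2 (Y μ4) (μ3 + μ4) := uni (y1 3)
  have A1 : Cd 2 (A μ1) μ1 := uni (a1 0)
  have A2 : Cd 2 (A μ2) μ2 := uni (a1 1)
  have A3 : Cd 2 (A μ3) (μ3 + μ1) := uni (a1 2)
  have A4 : Cd 2 (A μ4) (μ4 + (μ1 + μ2)) := uni (a1 3)
  have hE : ∀ g ∈ Subgroup.closure {tm S8 K μ1, tm S8 K μ2, tm S8 K μ3, tm S8 K μ4}, ∀ v,
      (g : Module.End K (L (Fin 8) (Fin 240) K)) (hh K v) = hh K v := fun g hg v => by
    induction hg using Subgroup.closure_induction with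
    | mem x hx => rcases hx with rfl | rfl | rfl | rfl <;> exact (mon_tm _).hh v
    | one => rfl
    | mul x y _ _ h1 h2 => rw [Units.val_mul, Module.End.mul_apply, h2, h1]
    | inv x _ h1 => rw [← h1, ← Module.End.mul_apply, ← Units.val_mul, inv_mul_cancel, h1]; rfl
  let P : V8 → Prop := fun r => S8.R r ∧ Ort S8 Ψ r
  have PY : ∀ r, P r → P (Y r) := fun r hr => ⟨hY.root r hr.1, (y2 r hr.2).1⟩
  have PA : ∀ r, P r → P (A r) := fun r hr => ⟨hA.root r hr.1, (a2 r hr.2).1⟩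
  have AA : ∀ r, P r → A (A r) = r := fun r hr => root_mod3 (K := K) (PA _ (PA r hr)).1 hr.1 (by
    rw [← (a2 _ (PA r hr).2).2, ← (a2 r hr.2).2]; exact hE _ cf.pa r)
  have YYY : ∀ r, P r → Y (Y (Y r)) = r := fun r hr => root_mod3 (K := K) (PY _ (PY _ (PY r hr))).1 hr.1 (by
    rw [← (y2 _ (PY _ (PY r hr)).2).2, ← (y2 _ (PY r hr).2).2, ← (y2 r hr.2).2]; exact hE _ cf.py r)
  have ay : ∀ r, P r → hh K (A (Y r)) = ((a * y : Γ (Fin 8) (Fin 240) K) : Module.End K (L (Fin 8) (Fin 240) K))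
      (hh K r) := fun r hr => by rw [← (a2 _ (PY r hr).2).2, ← (y2 r hr.2).2]; rfl
  have PAY : ∀ r, P r → P (A (Y r)) := fun r hr => PA _ (PY r hr)
  have ZZZ : ∀ r, P r → A (Y (A (Y (A (Y r))))) = r := fun r hr =>
    root_mod3 (K := K) (PAY _ (PAY _ (PAY r hr))).1 hr.1 (by
      rw [ay _ (PAY _ (PAY r hr)), ay _ (PAY r hr), ay r hr]; exact hE _ cf.pay r)
  have hO : ∀ {u v w}, Ort S8 Ψ u → Ort S8 Ψ v → Ort S8 Ψ w → Ort S8 Ψ (u + v + w) := fun h1 h2 h3 s hs h4 => by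
    simp only [map_add, LinearMap.add_apply, h1 s hs h4, h2 s hs h4, h3 s hs h4]; rfl
  have NY : ∀ r, P r → Y (Y r) + Y r + r = 0 := fun r hr =>
    norm0 h hY.iso (by
      simp only [List.forall_mem_cons, List.not_mem_nil, IsEmpty.forall_iff, implies_true, and_true]
      have g1 := Y1.map Y; have g2 := Y2.map Y; have g3 := Y3.map Y; have g4 := Y4.map Y
      rw [map_add] at g2 g4
      refine ⟨fun i => ?_, fun i => ?_, fun i => ?_, fun i => ?_⟩ <;>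
      · have := g1 i; have := g2 i; have := g3 i; have := g4 i
        have := Y1 i; have := Y2 i; have := Y3 i; have := Y4 i
        simp only [Pi.add_apply] at *; omega) _ _ (Nat.lt_succ_self _)
      (hO (PY _ (PY r hr)).2 (PY r hr).2 hr.2) (by rw [map_add, map_add, YYY r hr]; abel)
  have NZ : ∀ r, P r → A (Y (A (Y r))) + A (Y r) + r = 0 := fun r hr =>
    norm0 h (W := A ∘ₗ Y) (fun v v' => by simp only [LinearMap.comp_apply, hA.iso, hY.iso]) (by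
      simp only [List.forall_mem_cons, List.not_mem_nil, IsEmpty.forall_iff, implies_true, and_true]
      have Z1 : Cd 2 ((A ∘ₗ Y) μ1) μ2 := (Y1.map A).trans A2
      have Z2 : Cd 2 ((A ∘ₗ Y) μ2) (μ1 + μ2) := (Y2.map A).trans (by rw [map_add]; exact A1.add A2)
      have Z3 : Cd 2 ((A ∘ₗ Y) μ3) (μ4 + (μ1 + μ2)) := (Y3.map A).trans A4
      have Z4 : Cd 2 ((A ∘ₗ Y) μ4) (μ3 + μ1 + (μ4 + (μ1 + μ2))) :=
        (Y4.map A).trans (by rw [map_add]; exact A3.add A4)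
      generalize A ∘ₗ Y = Z at Z1 Z2 Z3 Z4 ⊢
      have g1 := Z1.map Z; have g2 := Z2.map Z; have g3 := Z3.map Z; have g4 := Z4.map Z
      simp only [map_add] at g2 g3 g4
      refine ⟨fun i => ?_, fun i => ?_, fun i => ?_, fun i => ?_⟩ <;>
      · have := g1 i; have := g2 i; have := g3 i; have := g4 i
        have := Z1 i; have := Z2 i; have := Z3 i; have := Z4 i
        simp only [Pi.add_apply] at *; omega) _ _ (Nat.lt_succ_self _)
      (hO (PAY _ (PAY r hr)).2 (PAY r hr).2 hr.2)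
      (by simp only [LinearMap.comp_apply, map_add, ZZZ r hr]; abel)
  have E2 : ∀ s, P s → Y (A s) + s - A (Y s) - A s = 0 := fun s hs => by
    have h1 := congrArg A (NZ _ (PY _ (PY s hs)))
    rw [YYY s hs, map_add, map_add, AA _ (PY _ (PA s hs)), AA s hs, map_zero] at h1
    have h2 := congrArg A (NY s hs)
    rw [map_add, map_add, map_zero] at h2
    linear_combination (norm := abel) h1 - h2
  have E3 : ∀ s, P s → A s = s := fun s hs => by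
    have h1 := congrArg A (E2 _ (PA s hs))
    rw [AA s hs, map_sub, map_sub, map_add, AA s hs, AA _ (PY _ (PA s hs)), map_zero] at h1
    have h2 := E2 s hs
    refine smul_right_injective V8 (two_ne_zero (α := ℤ)) ?_
    show (2 : ℤ) • A s = (2 : ℤ) • s
    linear_combination (norm := module) -h1 - h2
  have hP : P (rt i1) ∧ P (rt i2) := by
    refine ⟨⟨rt_R h.hi.1, ?_⟩, rt_R h.hi.2, ?_⟩ <;>
    · rintro _ ⟨r, rfl⟩ hr
      rw [rt_eq] at hr ⊢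
      have := h.ho r (mem_EvB.mp hr)
      rw [bb_eq]; tauto
  have h3 : A μ3 = μ3 := by
    rw [h.h3.eq, show (fun i => rt i1 i + k * rt i2 i) = rt i1 + k • rt i2 from rfl, map_add, map_smul,
      E3 _ hP.1, E3 _ hP.2]
  rw [h3] at A3
  exact h.h1 fun i => by have := A3 i; simp only [Pi.add_apply, Pi.zero_apply] at *; omega

end Cfsg.Agent.H9.E8
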