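import Cfsg.Agent.H9.E8.R6
import Cfsg.Agent.H9.E8.D3

set_option autoImplicit false
set_option linter.unusedSectionVars false
set_option linter.deprecated false
set_option linter.unusedSimpArgs false
set_option maxRecDepth 100000

/-! The configuration `2^4.A4` does not occur in type `E₈`. -/

namespace Cfsg.Agent.H9.E8

open Cfsg.Agent.H4.Sl Cfsg.Agent.LD.E8 Cfsg.Agent.LD.E8.SR Cfsg.Lie
open Cfsg.Agent.H4.Sl.RS (L hh Γ σ_apply R_ρ sum_R FrΓ FrΓ_inj)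

section
variable {G : Type*} [Group G] {z1 z2 e1 e2 y a : G}

theorem Cf.s2 (h : Cf z1 z2 e1 e2 y a) : z2 * z2 = 1 := by
  rw [← mul_inv_eq_iff_eq_mul.mpr h.y1, show y * z1 * y⁻¹ * (y * z1 * y⁻¹) = y * (z1 * z1) * y⁻¹ by group, h.s1]
  group

theorem Cf.s4 (h : Cf z1 z2 e1 e2 y a) : e2 * e2 = 1 := by
  rw [← mul_inv_eq_iff_eq_mul.mpr h.y3, show y * e1 * y⁻¹ * (y * e1 * y⁻¹) = y * (e1 * e1) * y⁻¹ by group, h.s3]
  group

theorem Cf.ne1 (h : Cf z1 z2 e1 e2 y a) : e1 ≠ 1 := fun h1 => h.ne (by simpa [h1] using h.a3.symm)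

theorem Cf.conj (h : Cf z1 z2 e1 e2 y a) (c : G) :
    Cf (c⁻¹ * z1 * c) (c⁻¹ * z2 * c) (c⁻¹ * e1 * c) (c⁻¹ * e2 * c) (c⁻¹ * y * c) (c⁻¹ * a * c) := by
  have := h.map (MulAut.conj c⁻¹).toMonoidHom fun h1 => h.ne ((MulAut.conj c⁻¹).injective (h1.trans (map_one _).symm))
  simpa only [MulEquiv.coe_toMonoidHom, MulAut.conj_apply, inv_inv] using this

theorem Cf.cls (h : Cf z1 z2 e1 e2 y a) (φ : G → ℤ) (hφ : ∀ c g, φ (c⁻¹ * g * c) = φ g) :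
    (φ z2 = φ z1 ∧ φ (z2 * z1) = φ z1) ∧
    ((φ e1 = φ e1 ∧ φ (e1 * z2) = φ e1) ∧ φ (e1 * z1) = φ e1 ∧ φ (e1 * z1 * z2) = φ e1) ∧
    ((φ e2 = φ e1 ∧ φ (e2 * z2) = φ e1) ∧ φ (e2 * z1) = φ e1 ∧ φ (e2 * z1 * z2) = φ e1) ∧
    ((φ (e1 * e2) = φ e1 ∧ φ (e1 * e2 * z2) = φ e1) ∧ φ (e1 * e2 * z1) = φ e1 ∧ φ (e1 * e2 * z1 * z2) = φ e1) ∧
    (((φ e2 = φ e1 ∧ φ (e2 * e1) = φ e1) ∧ φ (e2 * z2) = φ e1 ∧ φ (e2 * z2 * e1) = φ e1) ∧
      (φ (e2 * z1) = φ e1 ∧ φ (e2 * z1 * e1) = φ e1) ∧ φ (e2 * z1 * z2) = φ e1 ∧ φ (e2 * z1 * z2 * e1) = φ e1) := by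
  have sc : ∀ {c x x' : G}, SemiconjBy c x x' → φ x' = φ x := fun {c x x'} h => by
    rw [← hφ c x', mul_assoc, ← h.eq, inv_mul_cancel_left]
  have y1 : SemiconjBy y z1 z2 := h.y1
  have y2 : SemiconjBy y z2 (z1 * z2) := h.y2
  have y3 : SemiconjBy y e1 e2 := h.y3
  have y4 : SemiconjBy y e2 (e1 * e2) := h.y4
  have a3 : SemiconjBy a e1 (e1 * z1) := h.a3
  have a4 : SemiconjBy a e2 (e2 * (z1 * z2)) := h.a4
  have lc : ∀ {p q : G}, p * q = q * p → ∀ x, p * (q * x) = q * (p * x) := fun h x => by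
    rw [← mul_assoc, h, mul_assoc]
  have ls : ∀ {p : G}, p * p = 1 → ∀ x, p * (p * x) = x := fun h x => by rw [← mul_assoc, h, one_mul]
  have g1 := sc y1
  have g2 := sc y2
  have g3 := sc y3
  have g4 := sc y4
  have g5 := sc a3
  have g6 := sc a4
  have g7 := sc (a3.mul_right a4)
  have g8 := sc (y3.mul_right y1)
  have g9 := sc (y4.mul_right y2)
  have g10 := sc (y3.mul_right y2)
  have g11 := sc ((y4.mul_right y1).mul_right y2)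
  have g12 := sc (y4.mul_right y1)
  have g13 := sc ((y3.mul_right y1).mul_right y2)
  simp only [mul_assoc, h.c12.symm, h.c13, h.c14, h.c23, h.c24, h.c34.symm, lc h.c12.symm, lc h.c13, lc h.c14,
    lc h.c23, lc h.c24, lc h.c34.symm, h.s1, h.s2, h.s3, h.s4, ls h.s1, ls h.s2, ls h.s3, ls h.s4, mul_one, true_and]
    at g1 g2 g3 g4 g5 g6 g7 g8 g9 g10 g11 g12 g13 ⊢
  omega

end

variable {K : Type*} [Field K] [CharP K 3]

/-- the configuration inside the group -/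
structure CG (z1 z2 e1 e2 y a : Γ (Fin 8) (Fin 240) K) : Prop where
  cf : Cf z1 z2 e1 e2 y a
  m1 : z1 ∈ S8.U K Set.univ
  m2 : z2 ∈ S8.U K Set.univ
  m3 : e1 ∈ S8.U K Set.univ
  m4 : e2 ∈ S8.U K Set.univ
  my : y ∈ S8.U K Set.univ
  ma : a ∈ S8.U K Set.univ

theorem CG.conj {z1 z2 e1 e2 y a : Γ (Fin 8) (Fin 240) K} (h : CG z1 z2 e1 e2 y a) {c : Γ (Fin 8) (Fin 240) K}
    (hc : c ∈ S8.U K Set.univ) :
    CG (c⁻¹ * z1 * c) (c⁻¹ * z2 * c) (c⁻¹ * e1 * c) (c⁻¹ * e2 * c) (c⁻¹ * y * c) (c⁻¹ * a * c) :=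
  have k : ∀ {x}, x ∈ S8.U K Set.univ → c⁻¹ * x * c ∈ S8.U K Set.univ := fun hx =>
    mul_mem (mul_mem (inv_mem hc) hx) hc
  ⟨h.cf.conj c, k h.m1, k h.m2, k h.m3, k h.m4, k h.my, k h.ma⟩

theorem oE6 : ∀ r : Fin 240, EvB [A1, A2] (rt r) → bb A1 (rt r) = 0 ∧ bb A2 (rt r) = 0 := by decide +kernel

theorem oE6' : Cd 0 A1 (rt 239) ∧ Cd 0 A2 (rt 120) ∧ bb A1 A2 = 1 ∧ ty A1 = 24 ∧ ty B1 = -8 ∧ ty B3 = -8 ∧
    ty C3 = 24 := by decide +kernel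

theorem caseA (hsq : ∀ c : K, ∃ d, d * d = c) {e1 e2 y a : Γ (Fin 8) (Fin 240) K}
    (h : CG (tm S8 K A1) (tm S8 K A2) e1 e2 y a) : False := by
  have r1 : S8.R A1 := oE6'.1.eq ▸ rt_R (by norm_num)
  have r2 : S8.R A2 := oE6'.2.1.eq ▸ rt_R (by norm_num)
  have o1 : Ort S8 (EvL S8 [A1, A2]) A1 ∧ Ort S8 (EvL S8 [A1, A2]) A2 := by
    constructor <;>
    · rintro _ ⟨r, rfl⟩ hr
      rw [rt_eq] at hr ⊢
      have := oE6 r (mem_EvB.mp hr)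
      rw [bb_eq]; tauto
  have hs : ∀ g ∈ S8.U K Set.univ, g * tm S8 K A1 = tm S8 K A1 * g → g * tm S8 K A2 = tm S8 K A2 * g →
      ((g : Module.End K (L (Fin 8) (Fin 240) K)) (hh K A1) = hh K A1 ∧
        (g : Module.End K (L (Fin 8) (Fin 240) K)) (hh K A2) = hh K A2) ∨
      ((g : Module.End K (L (Fin 8) (Fin 240) K)) (hh K A1) = -hh K A1 ∧
        (g : Module.End K (L (Fin 8) (Fin 240) K)) (hh K A2) = -hh K A2) := fun g hg h1 h2 => by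
    have hm : ∀ r, S8.R r → (r ∈ (EvL S8 [A1, A2] : Set V8) ↔ ∀ i, 2 ∣ S8.b (![A1, A2] i) r) := fun r _ => by
      rw [SetLike.mem_coe, mem_EvL]; simp [Fin.forall_fin_succ]
    obtain ⟨w, hw, h3, h4⟩ := act_hh (two_ne K) hm hm hg (fun i => by fin_cases i <;> assumption)
    obtain ⟨x1, h5⟩ := Cd_iff.mp (show Cd 2 (w A1) A1 from uni (h3 0))
    obtain ⟨x2, h6⟩ := Cd_iff.mp (show Cd 2 (w A2) A2 from uni (h3 1))
    have h7 := hw.iso A1 A2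
    have h8 : S8.b A1 A2 = 1 := (bb_eq _ _).trans oE6'.2.2.1
    rw [(h4 _ o1.1).2, (h4 _ o1.2).2]
    rcases root_mod2 (hw.root _ r1) r1 h5 with h9 | h9 <;> rcases root_mod2 (hw.root _ r2) r2 h6 with h10 | h10 <;>
      rw [h9, h10] at h7 ⊢ <;> simp [h8] at h7 ⊢
  have key : ∀ e ∈ S8.U K Set.univ, e * e = 1 → e * tm S8 K A1 = tm S8 K A1 * e → e * tm S8 K A2 = tm S8 K A2 * e →
      AllC S8 [A1, A2] e (tc e1) → ¬ ((e : Module.End K (L (Fin 8) (Fin 240) K)) (hh K A1) = hh K A1 ∧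
        (e : Module.End K (L (Fin 8) (Fin 240) K)) (hh K A2) = hh K A2) := fun e he h1 h2 h3 h4 h5 => by
    have h6 := tc_inv hsq h.m3 h.cf.s3 h.cf.ne1
    obtain ⟨-, -, -, m, -, h7⟩ := stepT hsq fE6 (by norm_num) he h1 (by simp [h2, h3]) h4 h6 (fun j hj => by
      have : j = 6 ∨ j = 7 := by omega
      rcases this with rfl | rfl
      · rw [show fr _ 6 = rt 239 from rfl, ← oE6'.1.eq]; exact ⟨o1.1, h5.1⟩
      · rw [show fr _ 7 = rt 120 from rfl, ← oE6'.2.1.eq]; exact ⟨o1.2, h5.2⟩)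
    rcases h6 with h6 | h6 <;> rw [h6] at h7
    · exact (nA3 m).1 h7
    · exact (nA3 m).2 h7
  obtain ⟨-, c1, c2, c3, -⟩ := h.cf.cls tc tc_conj
  have k1 := (hs _ h.m3 h.cf.c13.symm h.cf.c23.symm).resolve_left (key _ h.m3 h.cf.s3 h.cf.c13.symm h.cf.c23.symm c1)
  have k2 := (hs _ h.m4 h.cf.c14.symm h.cf.c24.symm).resolve_left (key _ h.m4 h.cf.s4 h.cf.c14.symm h.cf.c24.symm c2)
  refine key _ (mul_mem h.m3 h.m4) ?_ ?_ ?_ c3 ?_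
  · rw [mul_assoc, ← mul_assoc e2, ← h.cf.c34, mul_assoc, h.cf.s4, mul_one, h.cf.s3]
  · rw [mul_assoc, ← h.cf.c14, ← mul_assoc, ← h.cf.c13, mul_assoc]
  · rw [mul_assoc, ← h.cf.c24, ← mul_assoc, ← h.cf.c23, mul_assoc]
  · simp only [Units.val_mul, Module.End.mul_apply, k1.1, k1.2, k2.1, k2.2, map_neg, neg_neg, and_self]

theorem caseB (hsq : ∀ c : K, ∃ d, d * d = c) {e1 e2 y a : Γ (Fin 8) (Fin 240) K}
    (h : CG (tm S8 K B1) (tm S8 K B2) e1 e2 y a) : False := by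
  have h1 := tc_inv hsq h.m3 h.cf.s3 h.cf.ne1
  have c1 : AllC S8 [B1, B2] e1 (tc e1) := (h.cf.cls tc tc_conj).2.1
  rcases id h1 with h2 | h2
  · obtain ⟨g, hg, h3, h4⟩ := stepS hsq fD44 h.m3 h.cf.s3 (by simp [h.cf.c13, h.cf.c23]) c1 h1 (h2 ▸ sC3)
    have h5 := h.conj hg
    rw [h3 B1 (by simp), h3 B2 (by simp), h4] at h5
    have c2 : AllC S8 [B1, B2, C3] _ (tc (tm S8 K C3)) := (h5.cf.cls tc tc_conj).2.2.2.2
    rw [tc_ty (two_ne K), oE6'.2.2.2.2.2.2] at c2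
    obtain ⟨g', hg', h6, h7⟩ := stepS hsq fD4A h5.m4 h5.cf.s4
      (by simp only [List.forall_mem_cons, h5.cf.c14, h5.cf.c24, h5.cf.c34]; simp) c2 (Or.inl rfl) sC4
    have h8 := h5.conj hg'
    rw [h6 B1 (by simp), h6 B2 (by simp), h6 C3 (by simp), h7] at h8
    exact final eC h8.my h8.ma h8.cf
  · obtain ⟨g, hg, h3, h4⟩ := stepS hsq fD44 h.m3 h.cf.s3 (by simp [h.cf.c13, h.cf.c23]) c1 h1 (h2 ▸ sB3)
    have h5 := h.conj hg
    rw [h3 B1 (by simp), h3 B2 (by simp), h4] at h5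
    have c2 : AllC S8 [B1, B2, B3] _ (tc (tm S8 K B3)) := (h5.cf.cls tc tc_conj).2.2.2.2
    rw [tc_ty (two_ne K), oE6'.2.2.2.2.2.1] at c2
    obtain ⟨g', hg', h6, h7⟩ := stepS hsq fA18 h5.m4 h5.cf.s4
      (by simp only [List.forall_mem_cons, h5.cf.c14, h5.cf.c24, h5.cf.c34]; simp) c2 (Or.inr rfl) sB4
    have h8 := h5.conj hg'
    rw [h6 B1 (by simp), h6 B2 (by simp), h6 B3 (by simp), h7] at h8
    exact final eB h8.my h8.ma h8.cf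

theorem no_CG (hsq : ∀ c : K, ∃ d, d * d = c) {z1 z2 e1 e2 y a : Γ (Fin 8) (Fin 240) K}
    (h : CG z1 z2 e1 e2 y a) : False := by
  have h1 := tc_inv hsq h.m1 h.cf.s1 h.cf.ne
  rcases id h1 with h2 | h2
  · obtain ⟨g, hg, -, h4⟩ := stepS hsq fE8 h.m1 h.cf.s1 (by simp) (c := tc z1) rfl h1 (h2 ▸ sA1)
    have h5 := h.conj hg
    rw [h4] at h5
    have c2 : AllC S8 [A1] _ (tc (tm S8 K A1)) := (h5.cf.cls tc tc_conj).1
    rw [tc_ty (two_ne K), oE6'.2.2.2.1] at c2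
    obtain ⟨g', hg', h6, h7⟩ := stepS hsq fE7 h5.m2 h5.cf.s2
      (by simp only [List.forall_mem_cons, h5.cf.c12]; simp) c2 (Or.inl rfl) sA2
    have h8 := h5.conj hg'
    rw [h6 A1 (by simp), h7] at h8
    exact caseA hsq h8
  · obtain ⟨g, hg, -, h4⟩ := stepS hsq fE8 h.m1 h.cf.s1 (by simp) (c := tc z1) rfl h1 (h2 ▸ sB1)
    have h5 := h.conj hg
    rw [h4] at h5
    have c2 : AllC S8 [B1] _ (tc (tm S8 K B1)) := (h5.cf.cls tc tc_conj).1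
    rw [tc_ty (two_ne K), oE6'.2.2.2.2.1] at c2
    obtain ⟨g', hg', h6, h7⟩ := stepS hsq fD8 h5.m2 h5.cf.s2
      (by simp only [List.forall_mem_cons, h5.cf.c12]; simp) c2 (Or.inr rfl) sB2
    have h8 := h5.conj hg'
    rw [h6 B1 (by simp), h7] at h8
    exact caseB hsq h8

theorem no_cfg : ¬ Cfg ↥(chevE8.group (ZMod 3)) := by
  rintro ⟨z1, z2, e1, e2, y, a, h⟩
  haveI : Fact (Nat.Prime 3) := ⟨Nat.prime_three⟩
  let K := AlgebraicClosure (ZMod 3)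
  haveI : CharP K 3 := charP_of_injective_algebraMap (algebraMap (ZMod 3) K).injective 3
  let Δ : Γ (Fin chevE8.rank) (Fin chevE8.nroots) (ZMod 3) := ΔΓ (D := chevE8) (ZMod 3) fun r => (dl r : ℤ)
  let ψ : chevE8.group (ZMod 3) →* Γ (Fin 8) (Fin 240) K := (FrΓ (algebraMap (ZMod 3) K)).comp
    ((MulAut.conj Δ).toMonoidHom.comp ((toΓ chevE8 (ZMod 3)).comp (chevE8.group (ZMod 3)).subtype))
  have h1 : Function.Injective ψ := (FrΓ_inj _).comp ((MulAut.conj Δ).injective.comp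
    ((toΓ_inj (D := chevE8) (ZMod 3)).comp Subtype.val_injective))
  have h2 : ∀ g, ψ g ∈ S8.U K Set.univ := fun g => by
    have := mem_U sgn8 g.2
    rw [inv_inv] at this
    exact SR.FrΓ_U (algebraMap (ZMod 3) K) this
  exact no_CG (fun c => by obtain ⟨d, hd⟩ := IsAlgClosed.exists_eq_mul_self c; exact ⟨d, hd.symm⟩)
    ⟨h.map ψ fun h3 => h.ne (h1 (h3.trans (map_one ψ).symm)), h2 _, h2 _, h2 _, h2 _, h2 _, h2 _⟩

end Cfsg.Agent.H9.E8
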